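import Mathlib

/-!
Every non-trivial even permutation of at least five points is `a * (b * a⁻¹ * b⁻¹)` with `a`, `b` even
and `a` having two two-cycles.
-/

set_option autoImplicit false
set_option linter.unusedSectionVars false
set_option linter.style.haveILetI false

namespace CfsgLib.Classes.AltInvolutions

open Equiv Equiv.Perm Finset

variable {α : Type*} [Fintype α] [DecidableEq α]

/-- `a` has two cycles of length two. -/
def TwoPairs (a : Perm α) : Prop :=
  ∃ p r, a p ≠ p ∧ a (a p) = p ∧ a r ≠ r ∧ a (a r) = r ∧ r ≠ p ∧ r ≠ a p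

/-- `σ` is the product of two involutions inside its support, moving nearly the same number of points. -/
def Pair (σ u v : Perm α) : Prop :=
  u * u = 1 ∧ v * v = 1 ∧ u * v = σ ∧ u.support ⊆ σ.support ∧ v.support ⊆ σ.support ∧
    (#u.support : ℤ) ≤ #v.support + 2 ∧ (#v.support : ℤ) ≤ #u.support + 2 ∧
    (σ ≠ 1 → u.support ≠ v.support)

theorem Pair.swap {σ u v : Perm α} (h : Pair σ u v) : Pair σ v (v * u * v) := by
  obtain ⟨hu, hv, huv, hus, hvs, h1, h2, h3⟩ := h
  have hvi : v⁻¹ = v := inv_eq_of_mul_eq_one_right hv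
  have hsupp : (v * u * v).support = u.support.map v.toEmbedding := by
    conv_lhs => rw [show v * u * v = v * u * v⁻¹ by rw [hvi]]
    exact Equiv.Perm.support_conj
  have hcard : #(v * u * v).support = #u.support := by rw [hsupp, card_map]
  refine ⟨hv, ?_, ?_, hvs, ?_, by rw [hcard]; exact h2, by rw [hcard]; exact h1, fun hσ he => ?_⟩
  · rw [show v * u * v * (v * u * v) = v * u * (v * v) * u * v by group, hv, mul_one, mul_assoc v u u,
      hu, mul_one, hv]
  · rw [show v * (v * u * v) = v * v * (u * v) by group, hv, one_mul, huv]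
  · intro x hx
    by_contra hxσ
    have hvx : v x = x := Equiv.Perm.notMem_support.mp fun h' => hxσ (hvs h')
    have hux : u x = x := Equiv.Perm.notMem_support.mp fun h' => hxσ (hus h')
    exact Equiv.Perm.mem_support.mp hx (by rw [Perm.mul_apply, Perm.mul_apply, hvx, hux, hvx])
  · refine h3 hσ (Finset.map_injective v.toEmbedding ?_)
    rw [← hsupp, ← he]
    ext x
    rw [Finset.mem_map_equiv, Equiv.Perm.mem_support, Equiv.Perm.mem_support]
    have hvv : ∀ y, v (v y) = y := fun y => Perm.ext_iff.mp hv y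
    rw [show v.symm x = v x from congrArg (fun w : Perm α => w x) hvi, hvv]
    exact ne_comm

theorem eq_one_of_fix {c : Perm α} (hc : c.IsCycle) {p : α} (hp : c p ≠ p) {a : ℤ}
    (h : (c ^ a) p = p) : c ^ a = 1 := by
  ext y
  rw [Perm.one_apply]
  by_cases hy : c y = y
  · exact Equiv.Perm.zpow_apply_eq_self_of_apply_eq_self hy a
  · obtain ⟨j, hj⟩ := hc.sameCycle hp hy
    rw [← hj, ← Perm.mul_apply, ← zpow_add, add_comm, zpow_add, Perm.mul_apply, h]

theorem pair_cycle {c : Perm α} (hc : c.IsCycle) : ∃ u v, Pair c u v := by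
  classical
  obtain ⟨p, hp, -⟩ := id hc
  obtain ⟨w, hw⟩ := isConj_iff.mp
    (isConj_iff_cycleType_eq.mpr (cycleType_inv c).symm : IsConj c c⁻¹)
  have hwp : c (w p) ≠ w p := by
    intro h
    have h1 : c⁻¹ (w p) = w p := by
      conv_lhs => rw [← h]
      simp
    rw [← hw] at h1
    simp at h1
    exact hp h1
  obtain ⟨i, hi⟩ := hc.sameCycle hwp hp
  set w2 := c ^ i * w with hw2
  have hconj : w2 * c * w2⁻¹ = c⁻¹ := by
    rw [hw2, show c ^ i * w * c * (c ^ i * w)⁻¹ = c ^ i * (w * c * w⁻¹) * (c ^ i)⁻¹ by group, hw]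
    group
  have hw2p : w2 p = p := by rw [hw2, Perm.mul_apply, hi]
  have hcomm : ∀ x, w2 (c x) = c⁻¹ (w2 x) := fun x => by
    rw [← hconj]; simp
  have hmem : ∀ x, c (w2 x) ≠ w2 x ↔ c x ≠ x := by
    intro x
    rw [not_iff_not]
    constructor
    · intro h
      apply w2.injective
      rw [hcomm, Perm.inv_eq_iff_eq, h]
    · intro h
      have := hcomm x
      rw [h, eq_comm, Perm.inv_eq_iff_eq] at this
      exact this.symm
  set v : Perm α := Perm.ofSubtype (w2.subtypePerm (p := fun x => c x ≠ x) hmem) with hv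
  have hv1 : ∀ x, c x ≠ x → v x = w2 x := fun x hx =>
    Perm.ofSubtype_apply_of_mem (p := fun x => c x ≠ x) _ hx
  have hv2 : ∀ x, c x = x → v x = x := fun x hx =>
    Perm.ofSubtype_apply_of_not_mem (p := fun x => c x ≠ x) _ (not_not.mpr hx)
  have hvc : v * c * v⁻¹ = c⁻¹ := by
    rw [mul_inv_eq_iff_eq_mul]
    ext x
    rw [Perm.mul_apply, Perm.mul_apply]
    by_cases hx : c x = x
    · rw [hx, hv2 x hx, eq_comm, Perm.inv_eq_iff_eq]; exact hx.symm
    · have hcx : c (c x) ≠ c x := fun h => hx (c.injective h)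
      rw [hv1 _ hcx, hv1 x hx, hcomm]
  have hvp : v p = p := by rw [hv1 p hp, hw2p]
  have hvpow : ∀ j : ℤ, v ((c ^ j) p) = (c ^ (-j)) p := by
    intro j
    have : v * c ^ j * v⁻¹ = c ^ (-j) := by rw [← conj_zpow, hvc, inv_zpow, zpow_neg]
    conv_rhs => rw [← this, Perm.mul_apply, Perm.mul_apply, show v⁻¹ p = p from
      Perm.inv_eq_iff_eq.mpr hvp.symm]
  have hvv : v * v = 1 := by
    ext x
    rw [Perm.mul_apply, Perm.one_apply]
    by_cases hx : c x = x
    · rw [hv2 x hx, hv2 x hx]
    · obtain ⟨j, rfl⟩ := hc.sameCycle hp hx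
      rw [hvpow, hvpow, neg_neg]
  have hvi : v⁻¹ = v := inv_eq_of_mul_eq_one_right hvv
  rw [hvi] at hvc
  have hcv : c * v * (c * v) = 1 := by rw [show c * v * (c * v) = c * (v * c * v) by group, hvc, mul_inv_cancel]
  have hvsub : v.support ⊆ c.support := fun x hx =>
    Perm.mem_support.mpr fun h => Perm.mem_support.mp hx (hv2 x h)
  have husub : (c * v).support ⊆ c.support :=
    (support_mul_le c v).trans (Finset.union_subset subset_rfl hvsub)
  set m := orderOf c with hmdef
  have hm : #c.support = m := hc.orderOf.symm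
  have hm0 : 0 < m := orderOf_pos c
  have key : ∀ x ∈ c.support, ∃ k : ℕ, k < m ∧ (c ^ (k : ℤ)) p = x := by
    intro x hx
    obtain ⟨k, hk⟩ := hc.exists_pow_eq hp (Perm.mem_support.mp hx)
    refine ⟨k % m, Nat.mod_lt _ hm0, ?_⟩
    rw [zpow_natCast, hmdef, pow_mod_orderOf, hk]
  have hdvd : ∀ a : ℤ, (c ^ a) p = p → (m : ℤ) ∣ a := fun a ha =>
    orderOf_dvd_iff_zpow_eq_one.mpr (eq_one_of_fix hc hp ha)
  have hA : c.support \ v.support ⊆ {p, (c ^ ((m / 2 : ℕ) : ℤ)) p} := by
    intro x hx
    rw [Finset.mem_sdiff, Perm.notMem_support] at hx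
    obtain ⟨k, hk, rfl⟩ := key x hx.1
    have h := hx.2
    rw [hvpow] at h
    have h' : (c ^ ((k : ℤ) + k)) p = p := by
      rw [zpow_add, Perm.mul_apply, ← h, ← Perm.mul_apply, ← zpow_add, add_neg_cancel, zpow_zero,
        Perm.one_apply]
    obtain ⟨d, hd⟩ := hdvd _ h'
    have hd2 : d < 2 := by
      by_contra hge
      have : (m : ℤ) * 2 ≤ m * d := mul_le_mul_of_nonneg_left (by omega) (by positivity)
      omega
    have hd0 : 0 ≤ d := by
      by_contra hlt
      have : (m : ℤ) * d ≤ m * (-1) := mul_le_mul_of_nonneg_left (by omega) (by positivity)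
      omega
    rw [Finset.mem_insert, Finset.mem_singleton]
    obtain rfl | rfl : d = 0 ∨ d = 1 := by omega
    · left; rw [show k = 0 by omega]; simp
    · right; rw [show m / 2 = k by omega]
  have hB : c.support \ (c * v).support ⊆ {(c ^ (((m + 1) / 2 : ℕ) : ℤ)) p} := by
    intro x hx
    rw [Finset.mem_sdiff, Perm.notMem_support] at hx
    obtain ⟨k, hk, rfl⟩ := key x hx.1
    have h := hx.2
    rw [Perm.mul_apply, hvpow] at h
    have h' : (c ^ ((k : ℤ) + k - 1)) p = p := by
      have h2 : (c ^ (1 + -(k : ℤ))) p = (c ^ (k : ℤ)) p := by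
        rw [zpow_add, zpow_one, Perm.mul_apply]; exact h
      have h3 := congrArg (fun y => (c ^ ((k : ℤ) - 1)) y) h2
      simp only [← Perm.mul_apply, ← zpow_add] at h3
      rw [show (k : ℤ) - 1 + (1 + -(k : ℤ)) = 0 by ring, zpow_zero, Perm.one_apply] at h3
      rw [show (k : ℤ) + k - 1 = (k : ℤ) - 1 + k by ring]
      exact h3.symm
    obtain ⟨d, hd⟩ := hdvd _ h'
    have hm2 : 2 ≤ m := hm ▸ hc.two_le_card_support
    have hd2 : d < 2 := by
      by_contra hge
      have : (m : ℤ) * 2 ≤ m * d := mul_le_mul_of_nonneg_left (by omega) (by positivity)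
      omega
    have hd0 : 0 ≤ d := by
      by_contra hlt
      have : (m : ℤ) * d ≤ m * (-1) := mul_le_mul_of_nonneg_left (by omega) (by positivity)
      omega
    rw [Finset.mem_singleton]
    obtain rfl | rfl : d = 0 ∨ d = 1 := by omega
    · omega
    · rw [show (m + 1) / 2 = k by omega]
  have e1 := Finset.card_sdiff_of_subset hvsub
  have e2 := Finset.card_sdiff_of_subset husub
  have e3 := (Finset.card_le_card hA).trans Finset.card_le_two
  have e4 := (Finset.card_le_card hB).trans (Finset.card_singleton _).le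
  have e5 := Finset.card_le_card hvsub
  have e6 := Finset.card_le_card husub
  refine ⟨c * v, v, hcv, hvv, by rw [mul_assoc, hvv, mul_one], husub, hvsub, by omega, by omega,
    fun _ he => ?_⟩
  have : p ∈ (c * v).support := Perm.mem_support.mpr (by rw [Perm.mul_apply, hvp]; exact hp)
  rw [he] at this
  exact Perm.mem_support.mp this hvp

theorem exists_pair (σ : Perm α) : ∃ u v, Pair σ u v := by
  induction σ using cycle_induction_on with
  | base_one => exact ⟨1, 1, by simp, by simp, by simp, by simp, by simp, by simp, by simp, fun h => absurd rfl h⟩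
  | base_cycles σ hσ => exact pair_cycle hσ
  | induction_disjoint σ τ hd hσc hσ hτ =>
    obtain ⟨u₁, v₁, hP₁⟩ := hσ
    obtain ⟨u₂, v₂, hP₂, hsign⟩ : ∃ u v, Pair τ u v ∧
        ((#u₁.support : ℤ) - #v₁.support) * ((#u.support : ℤ) - #v.support) ≤ 0 := by
      obtain ⟨u, v, hP⟩ := hτ
      by_cases h : ((#u₁.support : ℤ) - #v₁.support) * ((#u.support : ℤ) - #v.support) ≤ 0
      · exact ⟨u, v, hP, h⟩
      · refine ⟨_, _, hP.swap, ?_⟩
        have hc : #(v * u * v).support = #u.support := by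
          conv_lhs => rw [show v * u * v = v * u * v⁻¹ by rw [inv_eq_of_mul_eq_one_right hP.2.1]]
          exact Equiv.Perm.card_support_conj
        rw [hc]
        linarith [mul_comm ((#u₁.support : ℤ) - #v₁.support) ((#u.support : ℤ) - #v.support),
          (by ring : ((#u₁.support : ℤ) - #v₁.support) * ((#v.support : ℤ) - #u.support) =
            -(((#u₁.support : ℤ) - #v₁.support) * ((#u.support : ℤ) - #v.support)))]
    obtain ⟨hu1, hv1, huv1, hus1, hvs1, a1, b1, n1⟩ := hP₁
    obtain ⟨hu2, hv2, huv2, hus2, hvs2, a2, b2, -⟩ := hP₂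
    have hds := hd.disjoint_support
    have duu : Perm.Disjoint u₁ u₂ := disjoint_iff_disjoint_support.mpr (hds.mono hus1 hus2)
    have dvv : Perm.Disjoint v₁ v₂ := disjoint_iff_disjoint_support.mpr (hds.mono hvs1 hvs2)
    have duv : Perm.Disjoint v₁ u₂ := disjoint_iff_disjoint_support.mpr (hds.mono hvs1 hus2)
    refine ⟨u₁ * u₂, v₁ * v₂, ?_, ?_, ?_, ?_, ?_, ?_, ?_, fun _ he => ?_⟩
    · rw [duu.commute.symm.mul_mul_mul_comm, hu1, hu2, one_mul]
    · rw [dvv.commute.symm.mul_mul_mul_comm, hv1, hv2, one_mul]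
    · rw [duv.commute.symm.mul_mul_mul_comm, huv1, huv2]
    · rw [duu.support_mul, hd.support_mul]; exact Finset.union_subset_union hus1 hus2
    · rw [dvv.support_mul, hd.support_mul]; exact Finset.union_subset_union hvs1 hvs2
    · rw [duu.card_support_mul, dvv.card_support_mul]
      push_cast
      rcases mul_nonpos_iff.mp hsign with h | h <;> omega
    · rw [duu.card_support_mul, dvv.card_support_mul]
      push_cast
      rcases mul_nonpos_iff.mp hsign with h | h <;> omega
    · refine n1 hσc.ne_one ?_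
      rw [duu.support_mul, dvv.support_mul] at he
      ext x
      have hx := Finset.ext_iff.mp he x
      simp only [Finset.mem_union] at hx
      constructor <;> intro h
      · rcases hx.mp (Or.inl h) with h' | h'
        · exact h'
        · exact absurd (hvs2 h') (Finset.disjoint_left.mp hds (hus1 h))
      · rcases hx.mpr (Or.inl h) with h' | h'
        · exact h'
        · exact absurd (hus2 h') (Finset.disjoint_left.mp hds (hvs1 h))

theorem involution_data {u : Perm α} (hu : u * u = 1) :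
    ∃ k, #u.support = 2 * k ∧ u.cycleType = Multiset.replicate k 2 ∧ Perm.sign u = (-1 : ℤˣ) ^ k := by
  haveI : Fact (Nat.Prime 2) := ⟨Nat.prime_two⟩
  have h := cycleType_of_pow_prime_eq_one (p := 2) (by rw [pow_two]; exact hu : u ^ 2 = 1)
  refine ⟨u.cycleType.card, ?_, h, ?_⟩
  · rw [← sum_cycleType u]
    conv_lhs => rw [h]
    rw [Multiset.sum_replicate, smul_eq_mul, mul_comm]
  · rw [sign_of_cycleType']
    conv_lhs => rw [h]
    simp

theorem neg_one_pow_units_inj {a b : ℕ} (h : (-1 : ℤˣ) ^ a = (-1) ^ b) : a % 2 = b % 2 := by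
  rcases Nat.even_or_odd a with ha | ha <;> rcases Nat.even_or_odd b with hb | hb
  · rw [Nat.even_iff] at ha hb; omega
  · rw [ha.neg_one_pow, hb.neg_one_pow] at h; exact absurd h (by decide)
  · rw [ha.neg_one_pow, hb.neg_one_pow] at h; exact absurd h (by decide)
  · rw [Nat.odd_iff] at ha hb; omega

/-- Turning a conjugation into an even one. -/
theorem finish {σ u v π : Perm α} (hsu : Perm.sign u = 1) (h2 : TwoPairs u)
    (hπ : π * u⁻¹ * π⁻¹ = v) (huv : u * v = σ) :
    ∃ a b : Perm α, Perm.sign a = 1 ∧ Perm.sign b = 1 ∧ TwoPairs a ∧ a * (b * a⁻¹ * b⁻¹) = σ := by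
  rcases Int.units_eq_one_or (Perm.sign π) with h | h
  · exact ⟨u, π, hsu, h, h2, by rw [hπ, huv]⟩
  · obtain ⟨p, r, hp, hpp, -⟩ := id h2
    have hcom : u * Equiv.swap p (u p) = Equiv.swap p (u p) * u := by
      rw [Equiv.mul_swap_eq_swap_mul, hpp, Equiv.swap_comm]
    refine ⟨u, π * Equiv.swap p (u p), hsu, ?_, h2, ?_⟩
    · rw [map_mul, h, Perm.sign_swap (Ne.symm hp)]; rfl
    · have hc : Commute (Equiv.swap p (u p)) u⁻¹ := (Commute.inv_right (Commute.symm hcom))
      rw [show π * Equiv.swap p (u p) * u⁻¹ * (π * Equiv.swap p (u p))⁻¹ =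
        π * (Equiv.swap p (u p) * u⁻¹ * (Equiv.swap p (u p))⁻¹) * π⁻¹ by group, hc.eq,
        mul_inv_cancel_right, hπ, huv]

theorem twoPairs_of_card {u : Perm α} (hu : u * u = 1) (h : 4 ≤ #u.support) : TwoPairs u := by
  obtain ⟨p, hp⟩ := Finset.card_pos.mp (show 0 < #u.support by omega)
  obtain ⟨r, hr, hr'⟩ := Finset.exists_mem_notMem_of_card_lt_card
    (show #({p, u p} : Finset α) < #u.support from lt_of_le_of_lt Finset.card_le_two (by omega))
  simp only [Finset.mem_insert, Finset.mem_singleton, not_or] at hr'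
  exact ⟨p, r, Perm.mem_support.mp hp, Perm.ext_iff.mp hu p, Perm.mem_support.mp hr,
    Perm.ext_iff.mp hu r, hr'.1, hr'.2⟩

theorem of_involutions {σ u v : Perm α} (hu : u * u = 1) (hv : v * v = 1) (huv : u * v = σ)
    {k : ℕ} (hku : #u.support = 2 * k) (hkv : #v.support = 2 * k) (hk : Even k) (hk2 : 2 ≤ k) :
    ∃ a b : Perm α, Perm.sign a = 1 ∧ Perm.sign b = 1 ∧ TwoPairs a ∧ a * (b * a⁻¹ * b⁻¹) = σ := by
  obtain ⟨k', h1, h2, h3⟩ := involution_data hu
  obtain ⟨l', g1, g2, -⟩ := involution_data hv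
  obtain rfl : k' = k := by omega
  obtain rfl : l' = k' := by omega
  obtain ⟨π, hπ⟩ := isConj_iff.mp (isConj_iff_cycleType_eq.mpr (h2.trans g2.symm))
  refine finish (π := π) (by rw [h3, hk.neg_one_pow]) (twoPairs_of_card hu (by omega)) ?_ huv
  rw [inv_eq_of_mul_eq_one_right hu, hπ]

theorem exists_commutator (hcard : 5 ≤ Fintype.card α) {σ : Perm α} (hσ : Perm.sign σ = 1)
    (h1 : σ ≠ 1) :
    ∃ a b : Perm α, Perm.sign a = 1 ∧ Perm.sign b = 1 ∧ TwoPairs a ∧ a * (b * a⁻¹ * b⁻¹) = σ := by
  classical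
  obtain ⟨u, v, hu, hv, huv, -, -, a1, b1, hne⟩ := exists_pair σ
  obtain ⟨k, hk, hkt, hks⟩ := involution_data hu
  obtain ⟨l, hl, hlt, hls⟩ := involution_data hv
  have hpar : (-1 : ℤˣ) ^ k = (-1) ^ l := by
    rw [← hks, ← hls]
    have := congrArg Perm.sign huv
    rw [map_mul, hσ] at this
    rcases Int.units_eq_one_or (Perm.sign u) with e | e <;>
      rcases Int.units_eq_one_or (Perm.sign v) with f | f <;> rw [e, f] at this ⊢ <;>
        exact absurd this (by decide)
  obtain rfl : l = k := by have := neg_one_pow_units_inj hpar; omega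
  have hvv : ∀ a, v (v a) = a := fun a => Perm.ext_iff.mp hv a
  have huu : ∀ a, u (u a) = a := fun a => Perm.ext_iff.mp hu a
  have hk0 : l ≠ 0 := by
    rintro rfl
    rw [mul_zero, Finset.card_eq_zero, Perm.support_eq_empty_iff] at hk hl
    exact h1 (by rw [← huv, hk, hl, one_mul])
  rcases Nat.even_or_odd l with he | ho
  · exact of_involutions hu hv huv hk hl he (by
      rcases he with ⟨j, rfl⟩; omega)
  rcases (show l = 1 ∨ 3 ≤ l by rcases ho with ⟨j, rfl⟩; omega) with rfl | hl3
  · obtain ⟨a, b, hab, rfl⟩ := Perm.card_support_eq_two.mp hk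
    obtain ⟨c, d, hcd, rfl⟩ := Perm.card_support_eq_two.mp hl
    rw [Perm.support_swap hab, Perm.support_swap hcd] at hne
    by_cases hdis : Perm.Disjoint (Equiv.swap a b) (Equiv.swap c d)
    · have hds := hdis.disjoint_support
      rw [Perm.support_swap hab, Perm.support_swap hcd] at hds
      simp only [Finset.disjoint_insert_left, Finset.disjoint_singleton_left, Finset.mem_insert,
        Finset.mem_singleton, not_or] at hds
      obtain ⟨⟨hac, had⟩, hbc, hbd⟩ := hds
      have hba : b ≠ a := Ne.symm hab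
      have hca : c ≠ a := Ne.symm hac
      have hda : d ≠ a := Ne.symm had
      have hcb : c ≠ b := Ne.symm hbc
      have hdb : d ≠ b := Ne.symm hbd
      have hdc : d ≠ c := Ne.symm hcd
      have d1 : Perm.Disjoint (Equiv.swap a c) (Equiv.swap b d) :=
        disjoint_iff_disjoint_support.mpr (by
          rw [Perm.support_swap hac, Perm.support_swap hbd]
          simp [hab, hba, hac, hca, had, hda, hbc, hcb, hbd, hdb, hcd, hdc])
      have d2 : Perm.Disjoint (Equiv.swap a d) (Equiv.swap b c) :=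
        disjoint_iff_disjoint_support.mpr (by
          rw [Perm.support_swap had, Perm.support_swap hbc]
          simp [hab, hba, hac, hca, had, hda, hbc, hcb, hbd, hdb, hcd, hdc])
      refine of_involutions (u := Equiv.swap a d * Equiv.swap b c) (v := Equiv.swap a c * Equiv.swap b d)
        (k := 2) ?_ ?_ ?_ ?_ ?_ even_two le_rfl
      · rw [d2.commute.symm.mul_mul_mul_comm]; simp
      · rw [d1.commute.symm.mul_mul_mul_comm]; simp
      · rw [← huv]
        ext x
        simp only [Perm.mul_apply]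
        by_cases xa : x = a
        · subst xa; simp [Equiv.swap_apply_def, hab, hba, hac, hca, had, hda, hbc, hcb, hbd, hdb, hcd, hdc]
        by_cases xb : x = b
        · subst xb; simp [Equiv.swap_apply_def, hab, hba, hac, hca, had, hda, hbc, hcb, hbd, hdb, hcd, hdc]
        by_cases xc : x = c
        · subst xc; simp [Equiv.swap_apply_def, hab, hba, hac, hca, had, hda, hbc, hcb, hbd, hdb, hcd, hdc]
        by_cases xd : x = d
        · subst xd; simp [Equiv.swap_apply_def, hab, hba, hac, hca, had, hda, hbc, hcb, hbd, hdb, hcd, hdc]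
        simp [Equiv.swap_apply_def, xa, xb, xc, xd]
      · rw [d2.card_support_mul, Perm.card_support_swap had, Perm.card_support_swap hbc]
      · rw [d1.card_support_mul, Perm.card_support_swap hac, Perm.card_support_swap hbd]
    · set S : Finset α := {a, b} ∪ {c, d}
      have hS : #S ≤ 3 := by
        rw [disjoint_iff_disjoint_support, Perm.support_swap hab, Perm.support_swap hcd,
          Finset.not_disjoint_iff] at hdis
        obtain ⟨x, hx1, hx2⟩ := hdis
        have := Finset.card_union_add_card_inter ({a, b} : Finset α) {c, d}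
        have h0 : 0 < #(({a, b} : Finset α) ∩ {c, d}) :=
          Finset.card_pos.mpr ⟨x, Finset.mem_inter.mpr ⟨hx1, hx2⟩⟩
        rw [Finset.card_pair hab, Finset.card_pair hcd] at this
        show #({a, b} ∪ {c, d} : Finset α) ≤ 3
        omega
      obtain ⟨e, he, f, hf, hef⟩ := Finset.one_lt_card.mp (show 1 < #Sᶜ by
        rw [Finset.card_compl]; omega)
      simp only [S, Finset.mem_compl, Finset.mem_union, Finset.mem_insert, Finset.mem_singleton,
        not_or] at he hf
      have d1 : Perm.Disjoint (Equiv.swap a b) (Equiv.swap e f) :=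
        disjoint_iff_disjoint_support.mpr (by
          rw [Perm.support_swap hab, Perm.support_swap hef]
          simp [he.1.1, he.1.2, hf.1.1, hf.1.2])
      have d2 : Perm.Disjoint (Equiv.swap c d) (Equiv.swap e f) :=
        disjoint_iff_disjoint_support.mpr (by
          rw [Perm.support_swap hcd, Perm.support_swap hef]
          simp [he.2.1, he.2.2, hf.2.1, hf.2.2])
      refine of_involutions (u := Equiv.swap a b * Equiv.swap e f) (v := Equiv.swap c d * Equiv.swap e f)
        (k := 2) ?_ ?_ ?_ ?_ ?_ even_two le_rfl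
      · rw [d1.commute.symm.mul_mul_mul_comm]; simp
      · rw [d2.commute.symm.mul_mul_mul_comm]; simp
      · rw [d2.commute.symm.mul_mul_mul_comm, ← huv]; simp
      · rw [d1.card_support_mul, Perm.card_support_swap hab, Perm.card_support_swap hef]
      · rw [d2.card_support_mul, Perm.card_support_swap hcd, Perm.card_support_swap hef]
  obtain ⟨y, hy, hy'⟩ := Finset.not_subset.mp fun hsub : u.support ⊆ v.support =>
    hne h1 (Finset.eq_of_subset_of_card_le hsub (by omega))
  obtain ⟨x, hx, hx'⟩ := Finset.not_subset.mp fun hsub : v.support ⊆ u.support =>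
    hne h1 (Finset.eq_of_subset_of_card_le hsub (by omega)).symm
  rw [Perm.mem_support] at hx hy
  rw [Perm.notMem_support] at hx' hy'
  obtain ⟨π₀, hπ₀⟩ := isConj_iff.mp (isConj_iff_cycleType_eq.mpr (hkt.trans hlt.symm))
  have hfwd : ∀ z, v (π₀ z) = π₀ (u z) := fun z => by rw [← hπ₀]; simp
  set z₁ := π₀ x
  have hz₁ : v z₁ = z₁ := by rw [hfwd, hx']
  set π₁ := Equiv.swap z₁ y
  have hπ₁ : v * π₁ = π₁ * v := by rw [Equiv.mul_swap_eq_swap_mul, hz₁, hy']
  set a := π₁ (π₀ y)
  have ha : v a ≠ a := by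
    intro h
    have h2 : π₁ (v (π₀ y)) = π₁ (π₀ y) := by rw [← Perm.mul_apply, ← hπ₁, Perm.mul_apply]; exact h
    rw [π₁.injective.eq_iff, hfwd, π₀.injective.eq_iff] at h2
    exact hy h2
  obtain ⟨π₂, hπ₂v, hπ₂a, hπ₂y⟩ : ∃ π₂ : Perm α, v * π₂ = π₂ * v ∧ π₂ a = x ∧ π₂ y = y := by
    by_cases e1 : a = x
    · exact ⟨1, by simp, by simp [e1], rfl⟩
    have hya : y ≠ a := fun h => ha (h ▸ hy')
    have hyx : y ≠ x := fun h => hx (h ▸ hy')
    have hyvx : y ≠ v x := fun h => hyx (by rw [← hy', h, hvv])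
    have hyva : y ≠ v a := fun h => hya (by rw [← hy', h, hvv])
    by_cases e2 : a = v x
    · refine ⟨Equiv.swap x (v x), ?_, by rw [e2, Equiv.swap_apply_right],
        Equiv.swap_apply_of_ne_of_ne hyx hyvx⟩
      rw [Equiv.mul_swap_eq_swap_mul, hvv, Equiv.swap_comm]
    have d : Perm.Disjoint (Equiv.swap a x) (Equiv.swap (v a) (v x)) :=
      disjoint_iff_disjoint_support.mpr (by
        rw [Perm.support_swap e1, Perm.support_swap (fun h => e1 (v.injective h))]
        have hxa : x ≠ v a := fun h => e2 (by rw [h, hvv])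
        simp [ha, Ne.symm e2, Ne.symm hxa, hx])
    refine ⟨Equiv.swap a x * Equiv.swap (v a) (v x), ?_, ?_, ?_⟩
    · have eA : v * Equiv.swap a x = Equiv.swap (v a) (v x) * v := Equiv.mul_swap_eq_swap_mul _ _ _
      have eB : v * Equiv.swap (v a) (v x) = Equiv.swap a x * v := by
        rw [Equiv.mul_swap_eq_swap_mul, hvv, hvv]
      rw [← mul_assoc, eA, mul_assoc (Equiv.swap (v a) (v x)), eB, ← mul_assoc, d.commute.eq]
    · rw [Perm.mul_apply, Equiv.swap_apply_of_ne_of_ne (Ne.symm ha) e2, Equiv.swap_apply_left]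
    · rw [Perm.mul_apply, Equiv.swap_apply_of_ne_of_ne hyva hyvx, Equiv.swap_apply_of_ne_of_ne hya hyx]
  set π := π₂ * π₁ * π₀
  have hπ : π * u * π⁻¹ = v := by
    rw [show π * u * π⁻¹ = π₂ * (π₁ * (π₀ * u * π₀⁻¹) * π₁⁻¹) * π₂⁻¹ by simp only [π]; group, hπ₀, ← hπ₁,
      mul_inv_cancel_right, ← hπ₂v, mul_inv_cancel_right]
  have hπx : π x = y := by
    show π₂ (π₁ z₁) = y
    rw [show π₁ z₁ = y from Equiv.swap_apply_left _ _, hπ₂y]
  have hπy : π y = x := hπ₂a
  have hyx : y ≠ x := fun h => hx (h ▸ hy')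
  set κ := Equiv.swap x y
  refine finish (σ := σ) (u := u * κ) (v := κ * v) (π := π) ?_ ?_ ?_ ?_
  · rw [map_mul, hks, Perm.sign_swap (Ne.symm hyx), ho.neg_one_pow]; rfl
  · obtain ⟨p, hp, hp'⟩ := Finset.exists_mem_notMem_of_card_lt_card
      (show #({y, u y} : Finset α) < #u.support from lt_of_le_of_lt Finset.card_le_two (by omega))
    obtain ⟨r, hr, hr'⟩ := Finset.exists_mem_notMem_of_card_lt_card
      (show #({y, u y, p, u p} : Finset α) < #u.support from
        lt_of_le_of_lt Finset.card_le_four (by omega))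
    simp only [Finset.mem_insert, Finset.mem_singleton, not_or] at hp' hr'
    rw [Perm.mem_support] at hp hr
    have good : ∀ q, u q ≠ q → q ≠ y → q ≠ u y →
        (u * κ) q = u q ∧ (u * κ) ((u * κ) q) = q := by
      intro q hq hqy hquy
      have h1 : (u * κ) q = u q := by
        rw [Perm.mul_apply, Equiv.swap_apply_of_ne_of_ne (fun h => hq (by rw [h, hx'])) hqy]
      refine ⟨h1, ?_⟩
      rw [h1, Perm.mul_apply, Equiv.swap_apply_of_ne_of_ne
        (fun h => hq (by rw [h]; conv_rhs => rw [← huu q, h, hx']))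
        (fun h => hquy (by rw [← h, huu])), huu]
    obtain ⟨g1, g2⟩ := good p hp hp'.1 hp'.2
    obtain ⟨g3, g4⟩ := good r hr hr'.1 hr'.2.1
    exact ⟨p, r, by rwa [g1], g2, by rwa [g3], g4, hr'.2.2.1, by rw [g1]; exact hr'.2.2.2⟩
  · have h2 : π * κ * π⁻¹ = κ := by
      rw [← Equiv.swap_apply_apply, hπx, hπy, Equiv.swap_comm]
    rw [mul_inv_rev, inv_eq_of_mul_eq_one_right hu, Equiv.swap_inv,
      show π * (κ * u) * π⁻¹ = π * κ * π⁻¹ * (π * u * π⁻¹) by group, hπ, h2]
  · rw [show u * κ * (κ * v) = u * (κ * κ) * v by group, Equiv.swap_mul_self, mul_one, huv]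

end CfsgLib.Classes.AltInvolutions
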