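import Cfsg.Agent.Lib.Classes.InvolutionTwo

/-!
Counting classes of involutions by invariants.
-/

set_option autoImplicit false

namespace CfsgLib.Classes.InvTwo

open Module

/-- Classes of elements with a property are counted by a complete invariant. -/
theorem card_classes_eq {G α : Type*} [Group G] (P : G → Prop) (f : G → α)
    (h : ∀ g g', P g → P g' → (IsConj g g' ↔ f g = f g')) :
    Nat.card {C : ConjClasses G // ∃ g, ConjClasses.mk g = C ∧ P g} = Nat.card {a : α // ∃ g, P g ∧ f g = a} := by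
  let e : {C : ConjClasses G // ∃ g, ConjClasses.mk g = C ∧ P g} → {a : α // ∃ g, P g ∧ f g = a} :=
    fun C => ⟨f C.2.choose, C.2.choose, C.2.choose_spec.2, rfl⟩
  refine Nat.card_congr (Equiv.ofBijective e ⟨fun C C' hC => ?_, fun a => ?_⟩)
  · have h' : IsConj C.2.choose C'.2.choose := (h _ _ C.2.choose_spec.2 C'.2.choose_spec.2).mpr (congrArg Subtype.val hC)
    exact Subtype.ext (C.2.choose_spec.1.symm.trans ((ConjClasses.mk_eq_mk_iff_isConj.mpr h').trans C'.2.choose_spec.1))
  · obtain ⟨a, g, hg, rfl⟩ := a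
    let C : {C : ConjClasses G // ∃ g, ConjClasses.mk g = C ∧ P g} := ⟨ConjClasses.mk g, g, rfl, hg⟩
    exact ⟨C, Subtype.ext ((h _ _ C.2.choose_spec.2 hg).mp (ConjClasses.mk_eq_mk_iff_isConj.mp C.2.choose_spec.1))⟩

theorem card_le_two_mul (k : ℕ) : Nat.card {p : ℕ // 1 ≤ p ∧ p ≤ k} = k := by
  rw [show k = Nat.card (Fin k) by simp]
  refine (Nat.card_congr ?_).symm
  exact { toFun := fun i => ⟨i.1 + 1, by omega, by simp; try omega⟩
          invFun := fun p => ⟨p.1 - 1, by have := p.2; simp at this; omega⟩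
          left_inv := fun i => Fin.ext (by simp)
          right_inv := fun p => Subtype.ext (by have := p.2.1; simp; omega) }

/-- The number of pairs (rank, type) with rank at most `k`, resp. at most `k'` for the alternating type. -/
theorem card_types (k k' : ℕ) :
    Nat.card {p : ℕ × Bool // 1 ≤ p.1 ∧ (p.2 = false → p.1 ≤ k) ∧ (p.2 = true → p.1 ≤ k' ∧ Even p.1)} = k + k' / 2 := by
  let e : {p : ℕ × Bool // 1 ≤ p.1 ∧ (p.2 = false → p.1 ≤ k) ∧ (p.2 = true → p.1 ≤ k' ∧ Even p.1)} ≃
      {p : ℕ // 1 ≤ p ∧ p ≤ k} ⊕ {p : ℕ // 1 ≤ p ∧ p ≤ k' / 2} :=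
    { toFun := fun p => if h : p.1.2 = false then Sum.inl ⟨p.1.1, p.2.1, p.2.2.1 h⟩
        else Sum.inr ⟨p.1.1 / 2, by
          obtain ⟨⟨r, hr⟩, h1⟩ : Even p.1.1 ∧ 1 ≤ p.1.1 := ⟨(p.2.2.2 (by simpa using h)).2, p.2.1⟩
          have := (p.2.2.2 (by simpa using h)).1
          omega⟩
      invFun := fun q => q.elim (fun p => ⟨(p.1, false), p.2.1, fun _ => p.2.2, fun h => by simp at h⟩)
        (fun p => ⟨(2 * p.1, true), by have := p.2; simp only; omega, fun h => by simp at h,
          fun _ => ⟨by have := p.2; simp only; omega, even_two_mul _⟩⟩)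
      left_inv := fun p => by
        obtain ⟨⟨s, b⟩, h1, h2, h3⟩ := p
        cases b
        · simp
        · obtain ⟨r, hr⟩ := (h3 rfl).2
          simp only at hr
          simp [hr]; omega
      right_inv := fun q => by
        rcases q with p | p <;> simp }
  have : Finite {p : ℕ // 1 ≤ p ∧ p ≤ k} := (Set.finite_le_nat k).subset (fun _ h => h.2) |>.to_subtype
  have : Finite {p : ℕ // 1 ≤ p ∧ p ≤ k' / 2} := (Set.finite_le_nat (k' / 2)).subset (fun _ h => h.2) |>.to_subtype
  rw [Nat.card_congr e, Nat.card_sum, card_le_two_mul, card_le_two_mul]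

section Isometry

variable {F V : Type*} [Field F] [AddCommGroup V] [Module F V] [CharP F 2] {B : LinearMap.BilinForm F V}

/-- The nilpotent part of an involutory isometry. -/
theorem isNilSelf_sub_id {T : V →ₗ[F] V} (hT : ∀ u v, B (T u) (T v) = B u v) (h2 : ∀ v, T (T v) = v) :
    IsNilSelf B (T - LinearMap.id) := by
  refine ⟨fun v => ?_, fun u v => ?_⟩
  · simp only [LinearMap.sub_apply, LinearMap.id_apply, map_sub, h2]
    have h : (2 : F) • (v - T v) = 0 := by rw [CharTwo.two_eq_zero, zero_smul]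
    rw [two_smul] at h
    linear_combination (norm := abel) h
  · have h := hT u (T v)
    rw [h2] at h
    simp only [LinearMap.sub_apply, LinearMap.id_apply, map_sub, h]

theorem add_id_isometry {N : V →ₗ[F] V} (hN : IsNilSelf B N) :
    (∀ u v, B ((LinearMap.id + N : V →ₗ[F] V) u) ((LinearMap.id + N : V →ₗ[F] V) v) = B u v) ∧
      ∀ v, (LinearMap.id + N : V →ₗ[F] V) ((LinearMap.id + N : V →ₗ[F] V) v) = v := by
  refine ⟨fun u v => ?_, fun v => ?_⟩
  · simp only [LinearMap.add_apply, LinearMap.id_apply, map_add, hN.selfAdj u (v : V), hN.isotropic]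
    rw [add_zero, add_assoc, CharTwo.add_self_eq_zero, add_zero]
  · simp only [LinearMap.add_apply, LinearMap.id_apply, map_add, hN.sq, add_zero]
    rw [add_assoc, ← two_smul F (N v), CharTwo.two_eq_zero, zero_smul, add_zero]

/-- The rank is at most half the dimension. -/
theorem two_mul_rank_le [Finite F] [FiniteDimensional F V] (hB : B.Nondegenerate) (hA : B.IsAlt) {N : V →ₗ[F] V}
    (hN : IsNilSelf B N) : 2 * finrank F (LinearMap.range N) ≤ finrank F V := by
  by_cases h : IsAltType B N
  · obtain ⟨l, x, hx⟩ := (exists_adapted hB hA hN).1 h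
    have hi := LinearMap.finrank_le_finrank_of_injective (hx.lin_injective hN fun a => Sum.swap_swap a)
    rw [Module.finrank_fintype_fun_eq_card, Fintype.card_sum, hx.card] at hi
    omega
  · obtain ⟨x, hx⟩ := (exists_adapted hB hA hN).2 h
    have hi := LinearMap.finrank_le_finrank_of_injective (hx.lin_injective hN fun a => rfl)
    rw [Module.finrank_fintype_fun_eq_card, Fintype.card_sum, hx.card] at hi
    omega

end Isometry

end CfsgLib.Classes.InvTwo
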