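import Cfsg.Agent.Lib.Classes.InvolutionOrth
import Cfsg.Agent.Lib.Classes.HyperLevi
import Cfsg.Agent.Lib.Classes.QuadDisc
import Cfsg.Agent.Lib.ClassicalForms.Ortho.Generation

/-!
The types of involutions of the standard quadratic forms of plus and minus type in characteristic two.
-/

set_option autoImplicit false
set_option linter.unusedSectionVars false

namespace CfsgLib.Classes.InvTwo

open Module QuadraticMap CfsgLib.OrthGen CfsgLib.Forms

variable {F : Type*} [Field F] [CharP F 2]

section Family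

variable {ι : Type} [Fintype ι] [DecidableEq ι] {Q : QuadraticForm F (ι → F)}

theorem realised_of_family (hQ : (polarBilin Q).Nondegenerate) {s : ℕ} (hs : 1 ≤ s) (r : Fin s → ι → F)
    (hr : LinearIndependent F r) (hiso : ∀ i j, polarBilin Q (r i) (r j) = 0) :
    ((∀ i, Q (r i) = 1) → Realised Q (s, false)) ∧ (Even s → (∀ i, Q (r i) = 0) → Realised Q (s, true)) := by
  refine ⟨fun hq => ?_, fun he hq => ?_⟩
  · obtain ⟨-, hrk, -, hna⟩ := stdNil_spec (σ := id) hQ (polarBilin_isAlt Q) (fun _ => rfl) hr hiso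
    refine ⟨hs, _, stdNil_quad (σ := id) hQ (fun _ => rfl) hr hiso (fun i => by simp [hq i]) (Or.inl fun i => rfl),
      by rw [hrk, Fintype.card_fin], ?_⟩
    simpa using hna ⟨⟨0, hs⟩, rfl⟩
  · obtain ⟨l, rfl⟩ := he
    have hσ : Function.Involutive (Sum.swap : Fin l ⊕ Fin l → Fin l ⊕ Fin l) := fun a => Sum.swap_swap a
    have hfp : ∀ i : Fin l ⊕ Fin l, Sum.swap i ≠ i := fun i => by cases i <;> simp
    obtain ⟨-, hrk, ha, -⟩ := stdNil_spec (σ := Sum.swap) (r := r ∘ finSumFinEquiv) hQ (polarBilin_isAlt Q) hσ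
      (hr.comp _ finSumFinEquiv.injective) (fun i j => hiso _ _)
    refine ⟨hs, _, stdNil_quad hQ hσ (hr.comp _ finSumFinEquiv.injective) (fun i j => hiso _ _)
      (fun i => by simp [hq, hfp i]) (Or.inr hfp), by rw [hrk]; simp, ?_⟩
    simpa using ha hfp

theorem Realised.bounds [Finite F] (hQ : (polarBilin Q).Nondegenerate) {p : ℕ × Bool} (h : Realised Q p) :
    2 * p.1 ≤ Fintype.card ι ∧ (p.2 = true → Even p.1 ∧
      ∃ W : Submodule F (ι → F), finrank F W = p.1 ∧ ∀ w ∈ W, Q w = 0) := by
  obtain ⟨-, N, hN, hr, ht⟩ := h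
  refine ⟨?_, fun hb => ⟨?_, _, hr, hN.singular_range (ht.mp hb)⟩⟩
  · have := two_mul_rank_le hQ (polarBilin_isAlt Q) hN.toIsNilSelf
    rw [Module.finrank_fintype_fun_eq_card, hr] at this
    exact this
  · rw [← hr]; exact IsAltType.even_rank hQ (polarBilin_isAlt Q) hN.toIsNilSelf (ht.mp hb)

end Family

section Plus

variable [Finite F] (m : ℕ)

theorem realised_plus_iff (p : ℕ × Bool) : Realised (hypQ F m) p ↔
    1 ≤ p.1 ∧ (p.2 = false → p.1 ≤ m) ∧ (p.2 = true → p.1 ≤ m ∧ Even p.1) := by
  constructor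
  · intro h
    obtain ⟨h1, h2⟩ := h.bounds (hypQ_nondegenerate F m)
    simp only [Fintype.card_sum, Fintype.card_fin] at h1
    exact ⟨h.1, fun _ => by omega, fun hb => ⟨by omega, (h2 hb).1⟩⟩
  · rintro ⟨h1, h2, h3⟩
    obtain ⟨s, b⟩ := p
    simp only at h1 h2 h3
    have hsm : s ≤ m := by cases b <;> [exact h2 rfl; exact (h3 rfl).1]
    let e : Fin s → Fin m := Fin.castLE hsm
    have hli : LinearIndependent F fun i => (Pi.single (Sum.inl (e i)) 1 : Fin m ⊕ Fin m → F) := by
      have := (Pi.basisFun F (Fin m ⊕ Fin m)).linearIndependent.comp (fun i => Sum.inl (e i))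
        (Sum.inl_injective.comp (Fin.castLE_injective hsm))
      simpa [Function.comp_def] using this
    have hpf : ∀ (u v : Fin m ⊕ Fin m → F), polarBilin (hypQ F m) u v = ∑ i, (u (.inl i) * v (.inr i) + u (.inr i) * v (.inl i)) :=
      fun u v => by rw [polarBilin_apply_apply, coe_hypQ, polar_quadFormPlus, dotProduct_hypMatrix]
    cases b
    · let r : Fin s → Fin m ⊕ Fin m → F := fun i => Pi.single (Sum.inl (e i)) 1 + Pi.single (Sum.inr (e i)) 1
      refine (realised_of_family (hypQ_nondegenerate F m) h1 r ?_ (fun i j => ?_)).1 (fun i => ?_)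
      · refine Fintype.linearIndependent_iff.mpr fun g hg => Fintype.linearIndependent_iff.mp hli g (funext fun k => ?_)
        rcases k with k | k
        · have h := congrFun hg (Sum.inl k)
          simpa [r, Finset.sum_apply, Pi.single_apply] using h
        · simp [Finset.sum_apply]
      · rw [hpf]
        simp only [r, Pi.add_apply, Pi.single_apply, Sum.inl.injEq, Sum.inr.injEq, reduceCtorEq, if_false, add_zero,
          zero_add, mul_ite, mul_one, mul_zero]
        exact Finset.sum_eq_zero fun k _ => CharTwo.add_self_eq_zero _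
      · rw [coe_hypQ]
        simp [r, Cfsg.quadFormPlus, Pi.single_apply]
    · refine (realised_of_family (hypQ_nondegenerate F m) h1 _ hli (fun i j => ?_)).2 (h3 rfl).2 (fun i => ?_)
      · rw [hpf]; simp
      · rw [coe_hypQ]; simp [Cfsg.quadFormPlus]

end Plus

section Minus

variable [Finite F] (k : ℕ) {a b : F} (hab : CfsgLib.ClassicalForms.Aniso a b)
include hab

theorem minusQ_nondegenerate : (polarBilin (CfsgLib.ClassicalForms.qMinus k F a b)).Nondegenerate :=
  CfsgLib.ClassicalForms.nondeg_iff_polarBilin.mpr (CfsgLib.ClassicalForms.nondeg_qMinus hab k)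

/-- The minus form has no totally singular subspace of half the dimension. -/
theorem minusQ_no_half (W : Submodule F ((Fin k ⊕ Fin k) ⊕ Fin 2 → F))
    (hW : ∀ w ∈ W, CfsgLib.ClassicalForms.qMinus k F a b w = 0) : finrank F W ≠ k + 1 := by
  have hli : LinearIndependent F fun i : Fin k => (Pi.single (Sum.inl (Sum.inl i)) 1 : (Fin k ⊕ Fin k) ⊕ Fin 2 → F) := by
    have := (Pi.basisFun F ((Fin k ⊕ Fin k) ⊕ Fin 2)).linearIndependent.comp (fun i : Fin k => Sum.inl (Sum.inl i))
      (Sum.inl_injective.comp Sum.inl_injective)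
    simpa [Function.comp_def] using this
  refine no_half_singular (minusQ_nondegenerate k hab) (s := k + 1) ?_ (Submodule.span F (Set.range fun i : Fin k =>
    (Pi.single (Sum.inl (Sum.inl i)) 1 : (Fin k ⊕ Fin k) ⊕ Fin 2 → F))) ?_ (fun v hv hQv => ?_) W hW
  · rw [Module.finrank_fintype_fun_eq_card]; simp; omega
  · rw [finrank_span_eq_card hli, Fintype.card_fin]
  · have h0 : ∀ i, v (.inl (.inr i)) = 0 := fun i => by
      have h := hv _ (Submodule.subset_span ⟨i, rfl⟩)
      rw [polarBilin_apply_apply, show (⇑(CfsgLib.ClassicalForms.qMinus k F a b)) = Cfsg.quadFormMinus k F a b from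
        funext (CfsgLib.ClassicalForms.qMinus_apply k a b)] at h
      simpa [QuadraticMap.polar, Cfsg.quadFormMinus, Pi.single_apply, add_mul, Finset.sum_add_distrib] using h
    rw [CfsgLib.ClassicalForms.qMinus_apply, Cfsg.quadFormMinus, Finset.sum_eq_zero (fun i _ => by rw [h0 i, mul_zero]), zero_add] at hQv
    obtain ⟨h1, h2⟩ := hab _ _ hQv
    have hv' : v = ∑ i, v (.inl (.inl i)) • (Pi.single (Sum.inl (Sum.inl i)) 1 : (Fin k ⊕ Fin k) ⊕ Fin 2 → F) := by
      funext x
      rcases x with (x | x) | x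
      · simp [Finset.sum_apply, Pi.single_apply]
      · simp [Finset.sum_apply, h0]
      · fin_cases x <;> simp [Finset.sum_apply, h1, h2]
    rw [hv']
    exact Submodule.sum_mem _ fun i _ => Submodule.smul_mem _ _ (Submodule.subset_span ⟨i, rfl⟩)

theorem realised_minus_iff (p : ℕ × Bool) : Realised (CfsgLib.ClassicalForms.qMinus k F a b) p ↔
    1 ≤ p.1 ∧ (p.2 = false → p.1 ≤ k + 1) ∧ (p.2 = true → p.1 ≤ k ∧ Even p.1) := by
  constructor
  · intro h
    obtain ⟨h1, h2⟩ := h.bounds (minusQ_nondegenerate k hab)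
    simp only [Fintype.card_sum, Fintype.card_fin] at h1
    refine ⟨h.1, fun _ => by omega, fun hb => ⟨?_, (h2 hb).1⟩⟩
    obtain ⟨W, hWd, hW⟩ := (h2 hb).2
    have := minusQ_no_half k hab W hW
    omega
  · rintro ⟨h1, h2, h3⟩
    obtain ⟨s, b'⟩ := p
    simp only at h1 h2 h3
    set Q := CfsgLib.ClassicalForms.qMinus k F a b with hQdef
    have hcoe : ⇑Q = Cfsg.quadFormMinus k F a b := funext (CfsgLib.ClassicalForms.qMinus_apply k a b)
    cases b'
    · let g : Fin s → (Fin k ⊕ Fin k) ⊕ Fin 2 → F := fun i =>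
        if h : (i : ℕ) < k then Pi.single (Sum.inl (Sum.inl ⟨i, h⟩)) 1 + Pi.single (Sum.inl (Sum.inr ⟨i, h⟩)) 1
        else Pi.single (Sum.inr 0) 1
      have hpos : ∀ i : Fin s, ¬(i : ℕ) < k → (i : ℕ) = k := fun i hi => by have := h2 rfl; have := i.isLt; omega
      refine (realised_of_family (minusQ_nondegenerate k hab) h1 g ?_ (fun i j => ?_)).1 (fun i => ?_)
      · refine Fintype.linearIndependent_iff.mpr fun c hc i => ?_
        by_cases hi : (i : ℕ) < k
        · have h := congrFun hc (Sum.inl (Sum.inl ⟨i, hi⟩))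
          rw [Finset.sum_apply, Finset.sum_eq_single i] at h
          · simpa [g, hi] using h
          · intro j _ hj
            have : (j : ℕ) ≠ i := fun e => hj (Fin.ext e)
            by_cases hjk : (j : ℕ) < k <;> simp [g, hjk, Fin.ext_iff, this.symm]
          · simp
        · have h := congrFun hc (Sum.inr 0)
          rw [Finset.sum_apply, Finset.sum_eq_single i] at h
          · simpa [g, hi] using h
          · intro j _ hj
            have : (j : ℕ) < k := by
              by_contra hjk
              exact hj (Fin.ext ((hpos j hjk).trans (hpos i hi).symm))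
            simp [g, this]
          · simp
      · rw [polarBilin_apply_apply, hcoe]
        by_cases hi : (i : ℕ) < k <;> by_cases hj : (j : ℕ) < k
        · by_cases hij : i = j
          · subst hij
            rw [← hcoe, ← polarBilin_apply_apply]
            exact (polarBilin_isAlt Q).self_eq_zero _
          · have hne : (⟨i, hi⟩ : Fin k) ≠ ⟨j, hj⟩ := fun e => hij (Fin.ext (congrArg Fin.val e :))
            simp [g, hi, hj, QuadraticMap.polar, Cfsg.quadFormMinus, Pi.single_apply, hne, hne.symm, mul_add, Finset.sum_add_distrib]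
        · simp [g, hi, hj, QuadraticMap.polar, Cfsg.quadFormMinus, Pi.single_apply]
        · simp [g, hi, hj, QuadraticMap.polar, Cfsg.quadFormMinus, Pi.single_apply]
        · rw [show j = i from Fin.ext ((hpos j hj).trans (hpos i hi).symm), ← hcoe, ← polarBilin_apply_apply]
          exact (polarBilin_isAlt Q).self_eq_zero _
      · rw [hcoe]
        by_cases hi : (i : ℕ) < k <;> simp [g, hi, Cfsg.quadFormMinus, Pi.single_apply]
    · let e : Fin s → Fin k := Fin.castLE (h3 rfl).1
      have hli : LinearIndependent F fun i => (Pi.single (Sum.inl (Sum.inl (e i))) 1 : (Fin k ⊕ Fin k) ⊕ Fin 2 → F) := by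
        have := (Pi.basisFun F ((Fin k ⊕ Fin k) ⊕ Fin 2)).linearIndependent.comp (fun i => Sum.inl (Sum.inl (e i)))
          (Sum.inl_injective.comp (Sum.inl_injective.comp (Fin.castLE_injective _)))
        simpa [Function.comp_def] using this
      refine (realised_of_family (minusQ_nondegenerate k hab) h1 _ hli (fun i j => ?_)).2 (h3 rfl).2 (fun i => ?_)
      · rw [polarBilin_apply_apply, hcoe]
        simp [QuadraticMap.polar, Cfsg.quadFormMinus]
      · rw [hcoe]
        simp [Cfsg.quadFormMinus]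

/-- Reflections generate the orthogonal group of minus type. -/
theorem minusQ_gen : reflClosure (CfsgLib.ClassicalForms.qMinus k F a b) = ⊤ := by
  by_cases hk : k = 1
  swap
  · refine reflClosure_eq_top (minusQ_nondegenerate k hab) (Or.inr ?_)
    simp; omega
  set Q := CfsgLib.ClassicalForms.qMinus k F a b with hQdef
  have hsiegel : ∀ w u, Q w = 0 → pf Q u w = 0 → IsSiegelIn Q w u := by
    intro w u hw huw
    by_cases hu : Q u = 0
    swap
    · exact isSiegelIn_of_ne hw huw hu
    by_cases hspan : u ∈ Submodule.span F {w}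
    · obtain ⟨c, rfl⟩ := Submodule.mem_span_singleton.mp hspan
      exact isSiegelIn_smul hw c
    by_cases hw0 : w = 0
    · refine ⟨1, one_mem _, fun x => ?_⟩
      subst hw0
      simp [act_one, pf, hu]
    exfalso
    have hli : LinearIndependent F ![w, u] := (LinearIndependent.pair_iff' hw0).mpr fun c hc =>
      hspan (Submodule.mem_span_singleton.mpr ⟨c, hc⟩)
    refine minusQ_no_half k hab (Submodule.span F (Set.range ![w, u])) (fun z hz => ?_) ?_
    · obtain ⟨c, rfl⟩ := (Submodule.mem_span_range_iff_exists_fun F).mp hz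
      rw [Fin.sum_univ_two]
      show Q _ = 0
      simp [Q_add, Q_smul, hw, hu, pf, QuadraticMap.polar_smul_left, QuadraticMap.polar_smul_right,
        QuadraticMap.polar_comm Q w u, show QuadraticMap.polar (⇑Q) u w = 0 from huw]
    · rw [finrank_span_eq_card hli, Fintype.card_fin, hk]
  let E : Cfsg.isometryGroup F (⇑Q) ≃* CfsgLib.ClassicalForms.orth Q := CfsgLib.ClassicalForms.isoMat Q fun _ => rfl
  have hle : CfsgLib.ClassicalForms.reflGroup Q ⊔ CfsgLib.ClassicalForms.siegelGroup Q ≤ (reflClosure Q).map E.toMonoidHom := by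
    refine sup_le ((Subgroup.closure_le _).mpr ?_) ((Subgroup.closure_le _).mpr ?_)
    · rintro _ ⟨v, hv, rfl⟩
      refine ⟨refl Q hv, refl_mem_reflClosure hv, CfsgLib.ClassicalForms.orth_ext fun x => ?_⟩
      show act Q (refl Q hv) x = _
      rw [act_refl, CfsgLib.ClassicalForms.refl_apply, pf, QuadraticMap.polar_comm]
    · rintro _ ⟨u, w, hu, hw, rfl⟩
      obtain ⟨g, hg, hga⟩ := hsiegel u (-w) hu (by rw [pf, QuadraticMap.polar_neg_left, QuadraticMap.polar_comm, hw, neg_zero])
      refine ⟨g, hg, CfsgLib.ClassicalForms.orth_ext fun x => ?_⟩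
      show act Q g x = _
      rw [hga, CfsgLib.ClassicalForms.siegel_apply]
      simp only [pf, QuadraticMap.polar_neg_left, QuadraticMap.map_neg, QuadraticMap.polar_comm Q x]
      module
  rw [show CfsgLib.ClassicalForms.reflGroup Q ⊔ CfsgLib.ClassicalForms.siegelGroup Q = ⊤ from
    CfsgLib.ClassicalForms.isGen_qMinus hab k] at hle
  rw [Subgroup.eq_top_iff']
  intro g
  obtain ⟨g', hg', he⟩ := hle (Subgroup.mem_top (E g))
  rwa [← E.injective he]

end Minus

end CfsgLib.Classes.InvTwo

namespace CfsgLib.Classes.InvTwo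

theorem card_even_types (k k' : ℕ) :
    Nat.card {p : ℕ × Bool // Even p.1 ∧ 1 ≤ p.1 ∧ (p.2 = false → p.1 ≤ k) ∧ (p.2 = true → p.1 ≤ k' ∧ Even p.1)} =
      k / 2 + k' / 2 := by
  let e : {p : ℕ × Bool // Even p.1 ∧ 1 ≤ p.1 ∧ (p.2 = false → p.1 ≤ k) ∧ (p.2 = true → p.1 ≤ k' ∧ Even p.1)} ≃
      {p : ℕ // 1 ≤ p ∧ p ≤ k / 2} ⊕ {p : ℕ // 1 ≤ p ∧ p ≤ k' / 2} :=
    { toFun := fun p => if h : p.1.2 = false
        then Sum.inl ⟨p.1.1 / 2, by have := p.2.2.2.1 h; have := p.2.2.1; obtain ⟨r, hr⟩ := p.2.1; omega⟩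
        else Sum.inr ⟨p.1.1 / 2, by
          have := (p.2.2.2.2 (by simpa using h)).1; have := p.2.2.1; obtain ⟨r, hr⟩ := p.2.1; omega⟩
      invFun := fun q => q.elim
        (fun p => ⟨(2 * p.1, false), even_two_mul _, by have := p.2; simp only; omega,
          fun _ => by have := p.2; simp only; omega, fun h => by simp at h⟩)
        (fun p => ⟨(2 * p.1, true), even_two_mul _, by have := p.2; simp only; omega, fun h => by simp at h,
          fun _ => ⟨by have := p.2; simp only; omega, even_two_mul _⟩⟩)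
      left_inv := fun p => by
        obtain ⟨⟨s, b⟩, ⟨r, hr⟩, h1, h2, h3⟩ := p
        simp only at hr
        cases b <;> simp [hr] <;> omega
      right_inv := fun q => by
        rcases q with p | p <;> simp }
  have : Finite {p : ℕ // 1 ≤ p ∧ p ≤ k / 2} := (Set.finite_le_nat (k / 2)).subset (fun _ h => h.2) |>.to_subtype
  have : Finite {p : ℕ // 1 ≤ p ∧ p ≤ k' / 2} := (Set.finite_le_nat (k' / 2)).subset (fun _ h => h.2) |>.to_subtype
  rw [Nat.card_congr e, Nat.card_sum, card_le_two_mul, card_le_two_mul]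

end CfsgLib.Classes.InvTwo
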