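import Cfsg.Agent.Lib.Classes.InvolutionQuad
import Cfsg.Agent.Lib.Classes.SingularParity

/-!
Conjugacy classes of involutions of orthogonal groups and of their commutator subgroups in characteristic two.
-/

set_option autoImplicit false
set_option linter.unusedSectionVars false

namespace CfsgLib.Classes.InvTwo

open Module QuadraticMap CfsgLib.OrthGen CfsgLib.Forms

variable {F : Type*} [Field F] [CharP F 2] {ι : Type} [Fintype ι] [DecidableEq ι]
  {Q : QuadraticForm F (ι → F)}

theorem subOne_spec {g : Cfsg.isometryGroup F (⇑Q)} (hg : g * g = 1) : IsQuadNil Q (subOne g) := by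
  refine isQuadNil_sub_id (fun v => ?_) (fun v => ?_)
  · rw [Matrix.toLin'_apply]; exact Q_act g v
  · rw [Matrix.toLin'_apply, Matrix.toLin'_apply]
    show act Q g (act Q g v) = v
    rw [← act_mul, hg, act_one]

theorem orderOf_two_spec {g : Cfsg.isometryGroup F (⇑Q)} (hg : orderOf g = 2) :
    IsQuadNil Q (subOne g) ∧ 1 ≤ finrank F (LinearMap.range (subOne g)) := by
  have h2 : g * g = 1 := by rw [← _root_.sq, ← hg, pow_orderOf_eq_one]
  refine ⟨subOne_spec h2, ?_⟩
  by_contra h
  have h0 : LinearMap.range (subOne g) = ⊥ := Submodule.finrank_eq_zero.mp (by omega)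
  have : g = 1 := ext_act fun v => by
    have hv := LinearMap.congr_fun (LinearMap.range_eq_bot.mp h0) v
    rw [subOne_apply, LinearMap.zero_apply, sub_eq_zero] at hv
    rw [act_one, hv]
  rw [this, orderOf_one] at hg
  exact absurd hg (by omega)

theorem exists_of_isQuadNil {N : (ι → F) →ₗ[F] (ι → F)} (hN : IsQuadNil Q N)
    (h1 : 1 ≤ finrank F (LinearMap.range N)) :
    ∃ g : Cfsg.isometryGroup F (⇑Q), orderOf g = 2 ∧ subOne g = N := by
  obtain ⟨-, hi2⟩ := add_id_isometry hN.toIsNilSelf
  let e : (ι → F) ≃ₗ[F] (ι → F) :=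
    LinearEquiv.ofLinearMap (LinearMap.id + N) (LinearMap.id + N) (LinearMap.ext hi2) (LinearMap.ext hi2)
  let g := isoOfEquiv (Q := Q) e fun v => add_id_quad hN v
  have hge : ∀ v, act Q g v = v + N v := fun v => act_isoOfEquiv e _ v
  have hg : subOne g = N := LinearMap.ext fun v => by
    rw [subOne_apply, hge, add_sub_cancel_left]
  refine ⟨g, orderOf_eq_prime ?_ ?_, hg⟩
  · refine ext_act fun v => ?_
    rw [_root_.sq, act_mul, act_one, hge, hge]
    exact hi2 v
  · intro h0
    rw [← hg, show subOne g = 0 from LinearMap.ext fun v => by rw [subOne_apply, h0, act_one, sub_self]; rfl,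
      LinearMap.range_zero, finrank_bot] at h1
    omega

theorem subOne_intertwine {c g g' : Cfsg.isometryGroup F (⇑Q)} (h : c * g = g' * c) (v : ι → F) :
    act Q c (subOne g v) = subOne g' (act Q c v) := by
  rw [subOne_apply, subOne_apply, act_sub, ← act_mul, ← act_mul, h]

/-- An isometry as a linear automorphism. -/
noncomputable def actEquiv (c : Cfsg.isometryGroup F (⇑Q)) : (ι → F) ≃ₗ[F] (ι → F) :=
  LinearEquiv.ofLinearMap (Matrix.toLin' ((c : Matrix.GeneralLinearGroup ι F) : Matrix ι ι F))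
    (Matrix.toLin' ((c⁻¹ : Cfsg.isometryGroup F (⇑Q)) : Matrix.GeneralLinearGroup ι F).val)
    (LinearMap.ext fun v => act_act_inv c v) (LinearMap.ext fun v => act_inv_act c v)

theorem isConj_iff_invariants [Finite F] (hQ : (polarBilin Q).Nondegenerate) {g g' : Cfsg.isometryGroup F (⇑Q)}
    (hg : orderOf g = 2) (hg' : orderOf g' = 2) :
    IsConj g g' ↔ finrank F (LinearMap.range (subOne g)) = finrank F (LinearMap.range (subOne g')) ∧
      (IsAltType (polarBilin Q) (subOne g) ↔ IsAltType (polarBilin Q) (subOne g')) := by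
  constructor
  · intro h
    obtain ⟨c, hc⟩ := isConj_iff.mp h
    rw [mul_inv_eq_iff_eq_mul] at hc
    exact invariants_eq (B := polarBilin Q) (actEquiv c) (pf_act c) (subOne_intertwine hc)
  · rintro ⟨hr, ht⟩
    obtain ⟨e, he, heN⟩ := exists_quad_conj hQ (orderOf_two_spec hg).1 (orderOf_two_spec hg').1 hr ht
    refine isConj_iff.mpr ⟨isoOfEquiv e he, mul_inv_eq_iff_eq_mul.mpr (ext_act fun v => ?_)⟩
    rw [act_mul, act_mul, act_isoOfEquiv, act_isoOfEquiv]
    have h3 := heN v
    rw [subOne_apply, subOne_apply, map_sub] at h3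
    exact sub_left_injective h3

/-- The pairs (rank, type) of involutions. -/
def Realised (Q : QuadraticForm F (ι → F)) (p : ℕ × Bool) : Prop :=
  1 ≤ p.1 ∧ ∃ N, IsQuadNil Q N ∧ finrank F (LinearMap.range N) = p.1 ∧
    (p.2 = true ↔ IsAltType (polarBilin Q) N)

/-- The classes of involutions of the full orthogonal group. -/
theorem card_involution_classes [Finite F] (hQ : (polarBilin Q).Nondegenerate) :
    Nat.card {C : ConjClasses (Cfsg.isometryGroup F (⇑Q)) // ∃ g, ConjClasses.mk g = C ∧ orderOf g = 2} =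
      Nat.card {p : ℕ × Bool // Realised Q p} := by
  classical
  rw [card_classes_eq (fun g => orderOf g = 2)
    (fun g => (finrank F (LinearMap.range (subOne g)), decide (IsAltType (polarBilin Q) (subOne g))))
    (fun g g' hg hg' => by rw [isConj_iff_invariants hQ hg hg', Prod.mk.injEq, decide_eq_decide])]
  refine Nat.card_congr (Equiv.subtypeEquivRight fun p => ⟨?_, ?_⟩)
  · rintro ⟨g, hg, rfl⟩
    exact ⟨(orderOf_two_spec hg).2, subOne g, (orderOf_two_spec hg).1, rfl, decide_eq_true_iff⟩
  · rintro ⟨h1, N, hN, hr, ht⟩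
    obtain ⟨g, hg, hgN⟩ := exists_of_isQuadNil hN (hr ▸ h1)
    subst hgN
    refine ⟨g, hg, Prod.ext hr ?_⟩
    rw [Bool.eq_iff_iff, decide_eq_true_iff]
    exact ht.symm

/-- In characteristic two `Ω` is the kernel of the Dickson invariant, if reflections generate. -/
theorem mem_omega_iff_of_gen [Finite F] (hQ : (polarBilin Q).Nondegenerate) (hgen : reflClosure Q = ⊤)
    (g : Cfsg.isometryGroup F (⇑Q)) : g ∈ Cfsg.Omega F (⇑Q) ↔ dicksonSign g = 1 := by
  constructor
  · intro h
    exact MonoidHom.mem_ker.mp (Abelianization.commutator_subset_ker (dicksonHom hQ hgen) h)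
  intro h
  by_cases hex : ∃ a, Q a ≠ 0
  · obtain ⟨a, ha⟩ := hex
    have key : ∀ x ∈ reflClosure Q, ab Q x = if dicksonSign x = 1 then 1 else ab Q (refl Q ha) := by
      intro x hx
      induction hx using Subgroup.closure_induction_left with
      | one => rw [map_one, dicksonSign_one, if_pos rfl]
      | mul_left r hr y _ ih =>
        obtain ⟨v, hv, rfl⟩ := hr
        obtain ⟨t, ht⟩ := exists_sq (Q v / Q a)
        rw [map_mul, ab_refl_eq hQ ha hv (t := t) (by rw [ht, div_mul_cancel₀ _ ha]), ih, dicksonSign_refl_mul hQ hv]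
        rcases Int.units_eq_one_or (dicksonSign y) with e | e <;> simp [e, ab_refl_mul_self]
      | inv_mul_cancel r hr y _ ih =>
        obtain ⟨v, hv, rfl⟩ := hr
        obtain ⟨t, ht⟩ := exists_sq (Q v / Q a)
        rw [OrthGen.refl_inv, map_mul, ab_refl_eq hQ ha hv (t := t) (by rw [ht, div_mul_cancel₀ _ ha]), ih,
          dicksonSign_refl_mul hQ hv]
        rcases Int.units_eq_one_or (dicksonSign y) with e | e <;> simp [e, ab_refl_mul_self]
    exact ab_eq_one_iff.mp (by rw [key g (by rw [hgen]; trivial), if_pos h])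
  · push Not at hex
    have hbot : reflClosure Q ≤ ⊥ := by
      refine (Subgroup.closure_le _).mpr ?_
      rintro _ ⟨v, hv, rfl⟩
      exact absurd (hex v) hv
    rw [hgen] at hbot
    rw [show g = 1 from Subgroup.mem_bot.mp (hbot (Subgroup.mem_top g))]
    exact one_mem _

theorem refl_commute {g : Cfsg.isometryGroup F (⇑Q)} (hN : IsQuadNil Q (subOne g)) {u : ι → F}
    (hu : Q u ≠ 0) (hNu : subOne g u = 0) : Commute (refl Q hu) g := by
  have hgu : ∀ v, act Q g v = v + subOne g v := fun v => by rw [subOne_apply]; abel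
  have hB : ∀ v, pf Q u (subOne g v) = 0 := fun v => by
    have h := hN.selfAdj u v
    rw [hNu, map_zero, LinearMap.zero_apply] at h
    exact h.symm
  refine ext_act fun v => ?_
  rw [act_mul, act_mul, hgu v, act_add, act_refl Q hu, act_refl Q hu, hB, mul_zero, zero_smul, sub_zero, hgu,
    map_sub, map_smul, hNu, smul_zero, sub_zero]

/-- The centraliser of an involution has an element outside `Ω` unless its image is maximal totally singular. -/
theorem exists_odd_commute [Finite F] (hQ : (polarBilin Q).Nondegenerate) {g : Cfsg.isometryGroup F (⇑Q)}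
    (hg : orderOf g = 2)
    (h : ¬(IsAltType (polarBilin Q) (subOne g) ∧ 2 * finrank F (LinearMap.range (subOne g)) = Fintype.card ι)) :
    ∃ r : Cfsg.isometryGroup F (⇑Q), Commute r g ∧ dicksonSign r = -1 := by
  obtain ⟨hN, -⟩ := orderOf_two_spec hg
  suffices hu : ∃ u, subOne g u = 0 ∧ Q u ≠ 0 by
    obtain ⟨u, hNu, hu⟩ := hu
    exact ⟨refl Q hu, refl_commute hN hu hNu, dicksonSign_refl hQ hu⟩
  by_cases ha : IsAltType (polarBilin Q) (subOne g)
  · obtain ⟨l, x, hx, -⟩ := exists_adapted_alt hQ hN ha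
    have hle := two_mul_rank_le hQ (polarBilin_isAlt Q) hN.toIsNilSelf
    have hne : 2 * finrank F (LinearMap.range (subOne g)) ≠ Fintype.card ι := fun e => h ⟨ha, e⟩
    rw [Module.finrank_fintype_fun_eq_card] at hle
    obtain ⟨w, -, hNw, hQw⟩ := hx.exists_compl_value hQ hN (fun a => Sum.swap_swap a)
      (by rw [hx.card, Module.finrank_fintype_fun_eq_card]; omega) 1
    exact ⟨w, hNw, by rw [hQw]; exact one_ne_zero⟩
  · unfold IsAltType at ha
    push Not at ha
    obtain ⟨v, hv⟩ := ha
    exact ⟨subOne g v, hN.sq v, by rw [hN.value]; exact hv⟩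

/-- The triples (rank, type, family) of involutions in `Ω`. -/
def RealisedOmega (Q : QuadraticForm F (ι → F)) (p : (ℕ × Bool) × ℤˣ) : Prop :=
  Even p.1.1 ∧ Realised Q p.1 ∧ ((p.1.2 = true ∧ 2 * p.1.1 = Fintype.card ι) ∨ p.2 = 1)

/-- The classes of involutions of `Ω`. -/
theorem card_omega_classes [Finite F] (hQ : (polarBilin Q).Nondegenerate) (hgen : reflClosure Q = ⊤) :
    Nat.card {C : ConjClasses (Cfsg.Omega F (⇑Q)) // ∃ g, ConjClasses.mk g = C ∧ orderOf g = 2} =
      Nat.card {p : (ℕ × Bool) × ℤˣ // RealisedOmega Q p} := by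
  classical
  let full : (Cfsg.isometryGroup F (⇑Q)) → Prop := fun g =>
    IsAltType (polarBilin Q) (subOne g) ∧ 2 * finrank F (LinearMap.range (subOne g)) = Fintype.card ι
  have hmax : ∀ g : (Cfsg.isometryGroup F (⇑Q)), orderOf g = 2 → full g → IsMaxSingular Q (LinearMap.range (subOne g)) := fun g hg hf =>
    ⟨(orderOf_two_spec hg).1.singular_range hf.1, hf.2⟩
  let U : Submodule F (ι → F) := Classical.epsilon (IsMaxSingular Q)
  have hU : ∀ g : (Cfsg.isometryGroup F (⇑Q)), orderOf g = 2 → full g → IsMaxSingular Q U := fun g hg hf =>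
    Classical.epsilon_spec ⟨_, hmax g hg hf⟩
  let f : (Cfsg.isometryGroup F (⇑Q)) → (ℕ × Bool) × ℤˣ := fun g =>
    ((finrank F (LinearMap.range (subOne g)), decide (IsAltType (polarBilin Q) (subOne g))),
      if full g then relSign U (LinearMap.range (subOne g)) else 1)
  have hrange : ∀ c g g' : (Cfsg.isometryGroup F (⇑Q)), c * g = g' * c →
      LinearMap.range (subOne g') = Classes.mapSub c (LinearMap.range (subOne g)) := by
    intro c g g' h
    ext y
    constructor
    · rintro ⟨v, rfl⟩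
      exact ⟨subOne g (act Q c⁻¹ v), LinearMap.mem_range_self _ _,
        (subOne_intertwine h _).trans (by rw [act_act_inv])⟩
    · rintro ⟨_, ⟨v, rfl⟩, rfl⟩
      exact ⟨act Q c v, (subOne_intertwine h v).symm⟩
  have hmem : ∀ g : (Cfsg.isometryGroup F (⇑Q)), g ∈ Cfsg.Omega F (⇑Q) ↔ Even (finrank F (LinearMap.range (subOne g))) := fun g => by
    rw [mem_omega_iff_of_gen hQ hgen, dicksonSign]
    rcases Nat.even_or_odd (finrank F (LinearMap.range (subOne g))) with he | ho
    · simp [he, he.neg_one_pow]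
    · rw [ho.neg_one_pow]; simp [Nat.not_even_iff_odd.mpr ho]
  rw [card_classes_eq (fun g : Cfsg.Omega F (⇑Q) => orderOf g = 2) (fun g => f g) (fun g g' hg hg' => ?_)]
  · refine Nat.card_congr (Equiv.subtypeEquivRight fun p => ⟨?_, ?_⟩)
    · rintro ⟨g, hg, rfl⟩
      have hg' : orderOf (g : (Cfsg.isometryGroup F (⇑Q))) = 2 := by rw [Subgroup.orderOf_coe, hg]
      refine ⟨(hmem g).mp g.2, ⟨(orderOf_two_spec hg').2, _, (orderOf_two_spec hg').1, rfl, decide_eq_true_iff⟩, ?_⟩
      by_cases hf : full g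
      · exact Or.inl ⟨decide_eq_true hf.1, hf.2⟩
      · exact Or.inr (if_neg hf)
    · rintro ⟨heven, ⟨h1, N, hN, hr, ht⟩, hp⟩
      obtain ⟨g, hg, hgN⟩ := exists_of_isQuadNil hN (hr ▸ h1)
      have hf1 : (f g).1 = p.1 := Prod.ext ((congrArg (fun M => finrank F (LinearMap.range M)) hgN).trans hr) (by
        show decide (IsAltType (polarBilin Q) (subOne g)) = _
        rw [Bool.eq_iff_iff, decide_eq_true_iff, hgN]; exact ht.symm)
      have hgΩ : g ∈ Cfsg.Omega F (⇑Q) := (hmem g).mpr (by rw [hgN, hr]; exact heven)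
      by_cases hs : (f g).2 = p.2
      · exact ⟨⟨g, hgΩ⟩, by rw [← Subgroup.orderOf_coe]; exact hg, Prod.ext hf1 hs⟩
      obtain ⟨hb, hfull⟩ : p.1.2 = true ∧ 2 * p.1.1 = Fintype.card ι := by
        rcases hp with hp | hp
        · exact hp
        · by_contra hc
          refine hs ?_
          have : ¬full g := fun hf => hc ⟨ht.mpr (hgN ▸ hf.1), by rw [← hr, ← hgN]; exact hf.2⟩
          simp only [f, if_neg this, hp]
      have hfg : full g := ⟨hgN ▸ ht.mp hb, by rw [hgN, hr]; exact hfull⟩
      obtain ⟨a, ha⟩ : ∃ a, Q a ≠ 0 := by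
        by_contra hc
        push Not at hc
        have h2 := two_mul_finrank_singular_le Q hQ ⊤ (fun w _ => hc w)
        rw [finrank_top, Module.finrank_fintype_fun_eq_card] at h2
        omega
      set g₂ := refl Q ha * g * (refl Q ha)⁻¹ with hg₂
      have hc : refl Q ha * g = g₂ * refl Q ha := by rw [hg₂, inv_mul_cancel_right]
      have hg2o : orderOf g₂ = 2 := (orderOf_injective (MulAut.conj (refl Q ha)).toMonoidHom (MulEquiv.injective _) g).trans hg
      obtain ⟨hi1, hi2⟩ := invariants_eq (B := polarBilin Q) (actEquiv (refl Q ha)) (pf_act _) (subOne_intertwine hc)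
      have hfg2 : full g₂ := ⟨hi2.mp hfg.1, by rw [← hi1]; exact hfg.2⟩
      refine ⟨⟨g₂, (hmem g₂).mpr (by rw [← hi1, hgN, hr]; exact heven)⟩, by rw [← Subgroup.orderOf_coe]; exact hg2o, ?_⟩
      refine Prod.ext ?_ ?_
      · refine Eq.trans ?_ hf1
        exact Prod.ext hi1.symm (by simpa [f] using hi2.symm)
      · simp only [f, if_pos hfg] at hs
        simp only [f, if_pos hfg2]
        rw [hrange _ _ _ hc, relSign_refl hQ (hU g hg hfg) (hmax g hg hfg) ha]
        rcases Int.units_eq_one_or (relSign U (LinearMap.range (subOne g))) with e | e <;>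
          rcases Int.units_eq_one_or p.2 with e' | e' <;> simp_all
  · have hgo : orderOf (g : (Cfsg.isometryGroup F (⇑Q))) = 2 := by rw [Subgroup.orderOf_coe, hg]
    have hgo' : orderOf (g' : (Cfsg.isometryGroup F (⇑Q))) = 2 := by rw [Subgroup.orderOf_coe, hg']
    constructor
    · intro h
      obtain ⟨c, hc⟩ := isConj_iff.mp h
      rw [mul_inv_eq_iff_eq_mul] at hc
      have hc' : (c : (Cfsg.isometryGroup F (⇑Q))) * (g : (Cfsg.isometryGroup F (⇑Q))) = (g' : (Cfsg.isometryGroup F (⇑Q))) * (c : (Cfsg.isometryGroup F (⇑Q))) := congrArg Subtype.val hc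
      obtain ⟨hi1, hi2⟩ := invariants_eq (B := polarBilin Q) (actEquiv (c : (Cfsg.isometryGroup F (⇑Q)))) (pf_act _) (subOne_intertwine hc')
      refine Prod.ext (Prod.ext hi1 (by simpa [f] using hi2)) ?_
      have hff : full g ↔ full g' := by simp only [full, hi1, hi2]
      by_cases hf : full g
      · simp only [f, if_pos hf, if_pos (hff.mp hf)]
        rw [hrange _ _ _ hc', relSign_mapSub hQ hgen (hU g hgo hf) (hmax g hgo hf),
          (mem_omega_iff_of_gen hQ hgen _).mp c.2, one_mul]
      · simp only [f, if_neg hf, if_neg (hff.not.mp hf)]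
    · intro h
      have h1 := congrArg (fun p => p.1) h
      simp only [f, Prod.mk.injEq, decide_eq_decide] at h1
      obtain ⟨c, hc⟩ := isConj_iff.mp ((isConj_iff_invariants hQ hgo hgo').mpr h1)
      suffices ∃ d : (Cfsg.isometryGroup F (⇑Q)), dicksonSign d = 1 ∧ d * (g : (Cfsg.isometryGroup F (⇑Q))) = (g' : (Cfsg.isometryGroup F (⇑Q))) * d by
        obtain ⟨d, hd1, hd2⟩ := this
        exact isConj_iff.mpr ⟨⟨d, (mem_omega_iff_of_gen hQ hgen d).mpr hd1⟩,
          mul_inv_eq_iff_eq_mul.mpr (Subtype.ext hd2)⟩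
      rw [mul_inv_eq_iff_eq_mul] at hc
      rcases Int.units_eq_one_or (dicksonSign c) with e | e
      · exact ⟨c, e, hc⟩
      by_cases hf : full g
      · exfalso
        have hf' : full g' := ⟨h1.2.mp hf.1, h1.1 ▸ hf.2⟩
        have h2 := congrArg (fun p => p.2) h
        simp only [f, if_pos hf, if_pos hf'] at h2
        rw [hrange _ _ _ hc, relSign_mapSub hQ hgen (hU g hgo hf) (hmax g hgo hf), e] at h2
        rcases Int.units_eq_one_or (relSign U (LinearMap.range (subOne (g : (Cfsg.isometryGroup F (⇑Q)))))) with e' | e' <;>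
          rw [e'] at h2 <;> exact absurd h2 (by decide)
      · obtain ⟨r, hr, hrs⟩ := exists_odd_commute hQ hgo hf
        exact ⟨c * r, by rw [dicksonSign_mul hQ hgen, e, hrs]; rfl, by rw [mul_assoc, hr.eq, ← mul_assoc, hc, mul_assoc]⟩

end CfsgLib.Classes.InvTwo
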