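import Cfsg.Agent.Lib.Classes.InvolutionCount
import Cfsg.Agent.Lib.Forms.WittQuadratic

/-!
Involutions of quadratic spaces in characteristic two: normal forms (Aschbacher–Seitz).
-/

set_option autoImplicit false
set_option linter.unusedSectionVars false
set_option linter.unusedVariables false

namespace CfsgLib.Classes.InvTwo

open Module QuadraticMap

variable {F V : Type*} [Field F] [AddCommGroup V] [Module F V] [CharP F 2] {Q : QuadraticForm F V}

/-- `1 + N` is an isometry of the quadratic form of order at most two. -/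
structure IsQuadNil (Q : QuadraticForm F V) (N : V →ₗ[F] V) : Prop extends IsNilSelf (polarBilin Q) N where
  value : ∀ v, Q (N v) = polarBilin Q v (N v)

theorem polarBilin_isAlt (Q : QuadraticForm F V) : (polarBilin Q).IsAlt := fun v => by
  rw [polarBilin_apply_apply, QuadraticMap.polar_self, two_smul, CharTwo.add_self_eq_zero]

theorem map_add_polar (Q : QuadraticForm F V) (u v : V) : Q (u + v) = Q u + Q v + polarBilin Q u v := by
  rw [polarBilin_apply_apply, QuadraticMap.map_add Q u v]

theorem map_smul_sq (Q : QuadraticForm F V) (a : F) (v : V) : Q (a • v) = a * a * Q v := by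
  rw [QuadraticMap.map_smul, smul_eq_mul]

theorem map_sum_orth (Q : QuadraticForm F V) {κ : Type*} (S : Finset κ) (g : κ → V)
    (h : ∀ i ∈ S, ∀ j ∈ S, polarBilin Q (g i) (g j) = 0) : Q (∑ i ∈ S, g i) = ∑ i ∈ S, Q (g i) := by
  classical
  induction S using Finset.induction_on with
  | empty => simp
  | insert a S ha ih =>
    rw [Finset.sum_insert ha, Finset.sum_insert ha, map_add_polar, ih (fun i hi j hj => h i (Finset.mem_insert_of_mem hi) j (Finset.mem_insert_of_mem hj)),
      map_sum, Finset.sum_eq_zero fun j hj => h a (Finset.mem_insert_self a S) j (Finset.mem_insert_of_mem hj), add_zero]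

theorem polar_eq_of_isometry {V' : Type*} [AddCommGroup V'] [Module F V'] {Q' : QuadraticForm F V'} {T : V →ₗ[F] V'}
    (h : ∀ v, Q' (T v) = Q v) (u v : V) : polarBilin Q' (T u) (T v) = polarBilin Q u v := by
  simp [QuadraticMap.polar, ← map_add, h]

/-- Quadratic forms with the same polar form and values on a basis agree. -/
theorem eq_of_polar_single {κ : Type} [Fintype κ] [DecidableEq κ] (Q₁ Q₂ : QuadraticForm F (κ → F))
    (hp : ∀ u v, polarBilin Q₁ u v = polarBilin Q₂ u v)
    (hs : ∀ k, Q₁ (Pi.single k 1) = Q₂ (Pi.single k 1)) (v : κ → F) : Q₁ v = Q₂ v := by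
  have key : ∀ S : Finset κ, Q₁ (∑ k ∈ S, v k • (Pi.single k 1 : κ → F)) = Q₂ (∑ k ∈ S, v k • (Pi.single k 1 : κ → F)) := by
    intro S
    induction S using Finset.induction_on with
    | empty => simp
    | insert a S ha ih =>
      rw [Finset.sum_insert ha, map_add_polar, map_add_polar, map_smul_sq, map_smul_sq, hs, hp, ih]
  have hv : v = ∑ k, v k • (Pi.single k 1 : κ → F) := pi_eq_sum_univ' v
  rw [hv]
  exact key _

theorem isQuadNil_sub_id {T : V →ₗ[F] V} (hT : ∀ v, Q (T v) = Q v) (h2 : ∀ v, T (T v) = v) :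
    IsQuadNil Q (T - LinearMap.id) := by
  refine ⟨isNilSelf_sub_id (polar_eq_of_isometry hT) h2, fun v => ?_⟩
  have h := map_add_polar Q v ((T - LinearMap.id : V →ₗ[F] V) v)
  rw [show v + (T - LinearMap.id : V →ₗ[F] V) v = T v by simp, hT, add_assoc] at h
  have h' : Q ((T - LinearMap.id : V →ₗ[F] V) v) + polarBilin Q v ((T - LinearMap.id : V →ₗ[F] V) v) = 0 := left_eq_add.mp h
  exact CharTwo.add_eq_zero.mp h'

theorem add_id_quad {N : V →ₗ[F] V} (hN : IsQuadNil Q N) (v : V) : Q (v + N v) = Q v := by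
  rw [map_add_polar, hN.value, add_assoc, CharTwo.add_self_eq_zero, add_zero]

section Normal

variable [FiniteDimensional F V] {N : V →ₗ[F] V} {ι : Type} [Fintype ι] [DecidableEq ι] {σ : ι → ι} {x : ι → V}

theorem Adapted.value_map (hN : IsQuadNil Q N) (hx : Adapted (polarBilin Q) N σ x) (i : ι) :
    Q (N (x i)) = if σ i = i then 1 else 0 := by rw [hN.value, hx.pair]

theorem Adapted.quad_lin_eq (hN : IsQuadNil Q N) (hσ : Function.Involutive σ) (hx : Adapted (polarBilin Q) N σ x)
    {N' : V →ₗ[F] V} (hN' : IsQuadNil Q N') {x' : ι → V} (hx' : Adapted (polarBilin Q) N' σ x')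
    (hq : ∀ i, Q (x i) = Q (x' i)) (v : ι ⊕ ι → F) : Q (lin N x v) = Q (lin N' x' v) := by
  refine eq_of_polar_single (Q.comp (lin N x)) (Q.comp (lin N' x')) (fun u w => ?_) (fun k => ?_) v
  · rw [← polar_eq_of_isometry (Q' := Q) (Q := Q.comp (lin N x)) (T := lin N x) (fun _ => rfl) u w,
      ← polar_eq_of_isometry (Q' := Q) (Q := Q.comp (lin N' x')) (T := lin N' x') (fun _ => rfl) u w,
      hx.bilin_lin hN.toIsNilSelf hσ, hx'.bilin_lin hN'.toIsNilSelf hσ]
  · simp only [QuadraticMap.comp_apply, lin, Fintype.linearCombination_apply_single, one_smul]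
    rcases k with i | i
    · exact hq i
    · exact (hx.value_map hN i).trans (hx'.value_map hN' i).symm

/-- Adapted families with the same values give conjugate maps. -/
theorem exists_quad_conj_of_adapted (hQ : (polarBilin Q).Nondegenerate) (hN : IsQuadNil Q N)
    (hσ : Function.Involutive σ) (hx : Adapted (polarBilin Q) N σ x) {N' : V →ₗ[F] V} (hN' : IsQuadNil Q N')
    {x' : ι → V} (hx' : Adapted (polarBilin Q) N' σ x') (hq : ∀ i, Q (x i) = Q (x' i)) :
    ∃ g : V ≃ₗ[F] V, (∀ v, Q (g v) = Q v) ∧ ∀ v, g (N v) = N' (g v) := by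
  let e := LinearEquiv.ofInjective (lin N x) (hx.lin_injective hN.toIsNilSelf hσ)
  obtain ⟨g, hg, hgx⟩ := CfsgLib.Forms.witt_extension_quadratic Q hQ (LinearMap.range (lin N x))
    ((lin N' x').comp e.symm.toLinearMap) ((hx'.lin_injective hN'.toIsNilSelf hσ).comp e.symm.injective) (fun u => by
      obtain ⟨a, rfl⟩ := e.surjective u
      show Q (lin N' x' (e.symm (e a))) = Q (lin N x a)
      rw [e.symm_apply_apply, hx.quad_lin_eq hN hσ hN' hx' hq])
  refine ⟨g, hg, hx.intertwine hQ (polarBilin_isAlt Q) hN.toIsNilSelf hσ hN'.toIsNilSelf hx' g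
    (polar_eq_of_isometry (T := g.toLinearMap) hg) fun v => ?_⟩
  exact (hgx (e v)).trans (congrArg (lin N' x') (e.symm_apply_apply v))

/-- The values of a family shifted along `range N`. -/
theorem shift_value (hN : IsQuadNil Q N) (hσ : Function.Involutive σ)
    (hp : ∀ i j, polarBilin Q (x i) (N (x j)) = if σ i = j then 1 else 0) (M : ι → ι → F) (i : ι) :
    Q (x i + ∑ k, M i k • N (x (σ k))) = Q (x i) + M i i +
      polarBilin Q (∑ k, M i k • x (σ k)) (N (∑ k, M i k • x (σ k))) := by
  rw [map_add_polar, ← hN.value, add_right_comm]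
  congr 1
  · congr 1
    simp only [map_sum, map_smul, hp, hσ.injective.eq_iff, smul_eq_mul, mul_ite, mul_one, mul_zero,
      Finset.sum_ite_eq, Finset.mem_univ, if_true]
  · simp only [map_sum, map_smul]

/-- A normal family in the alternating case. -/
theorem exists_adapted_alt [Finite F] (hQ : (polarBilin Q).Nondegenerate) (hN : IsQuadNil Q N)
    (h : IsAltType (polarBilin Q) N) :
    ∃ (l : ℕ) (x : Fin l ⊕ Fin l → V), Adapted (polarBilin Q) N Sum.swap x ∧ ∀ i, Q (x i) = 0 := by
  have hA := polarBilin_isAlt Q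
  obtain ⟨l, x, hl, hx⟩ := (exists_pair_family hQ hA hN.toIsNilSelf).1 h
  obtain ⟨M, hMd, hM⟩ := exists_correction (x := x) hA fun i => Q (x i)
  have hs := shift_pair hN.toIsNilSelf hA (fun a => Sum.swap_swap a) hx M
  refine ⟨l, _, ⟨fun i j => (hs.1 i j).trans (hM i j), hs.2, by simp; omega⟩, fun i => ?_⟩
  rw [shift_value hN (fun a => Sum.swap_swap a) hx, hMd, h, CharTwo.add_self_eq_zero, add_zero]

/-- A normal family in the non-alternating case. -/
theorem exists_adapted_orth [Finite F] (hQ : (polarBilin Q).Nondegenerate) (hN : IsQuadNil Q N)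
    (h : ¬IsAltType (polarBilin Q) N) :
    ∃ (x : Fin (finrank F (LinearMap.range N)) → V) (i₀ : Fin (finrank F (LinearMap.range N))),
      Adapted (polarBilin Q) N id x ∧ ∀ i, i ≠ i₀ → Q (x i) = 0 := by
  classical
  have hA := polarBilin_isAlt Q
  obtain ⟨x, hx⟩ := (exists_adapted hQ hA hN.toIsNilSelf).2 h
  have hpos : 0 < finrank F (LinearMap.range N) := by
    by_contra h0
    refine h fun v => ?_
    have hr : LinearMap.range N = ⊥ := Submodule.finrank_eq_zero.mp (by omega)
    rw [LinearMap.range_eq_bot.mp hr, LinearMap.zero_apply, map_zero]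
  choose l hl using fun i => exists_sq (Q (x i))
  set i₀ : Fin (finrank F (LinearMap.range N)) := ⟨0, hpos⟩
  let M : Fin (finrank F (LinearMap.range N)) → Fin (finrank F (LinearMap.range N)) → F := fun i k =>
    if i = i₀ then (if k = i₀ then 0 else l k) else (if k = i₀ then l i else 0)
  have hMsym : ∀ i j, M i j + M j i = 0 := fun i j => by
    by_cases hi : i = i₀ <;> by_cases hj : j = i₀ <;> simp [M, hi, hj, CharTwo.add_self_eq_zero]
  have hs := shift_pair hN.toIsNilSelf hA (σ := id) (fun a => rfl) hx.pair M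
  refine ⟨_, i₀, ⟨fun i j => by rw [hs.1, hx.orth, hMsym, add_zero], hs.2, hx.card⟩, fun i hi => ?_⟩
  have hp : ∀ a b, polarBilin Q (x a) (N (x b)) = if a = b then 1 else 0 := hx.pair
  rw [shift_value hN (σ := id) (fun a => rfl) hx.pair]
  simp only [id, map_sum, map_smul, LinearMap.sum_apply, LinearMap.smul_apply, hp, smul_eq_mul, mul_ite, mul_one,
    mul_zero, Finset.sum_ite_eq', Finset.mem_univ, if_true]
  rw [Finset.sum_eq_single i₀ (fun k _ hk => by simp [M, hi, hk]) (by simp)]
  simp [M, hi, hl, CharTwo.add_self_eq_zero]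

/-- Shifting one vector of an orthonormal family. -/
theorem Adapted.exists_shift_first (hN : IsQuadNil Q N) (hx : Adapted (polarBilin Q) N (id : ι → ι) x) (i₀ : ι) (c : F) :
    ∃ x' : ι → V, Adapted (polarBilin Q) N id x' ∧ Q (x' i₀) = Q (x i₀) + (c * c + c) ∧ ∀ i, i ≠ i₀ → Q (x' i) = Q (x i) := by
  let M : ι → ι → F := fun i k => if i = i₀ ∧ k = i₀ then c else 0
  have hMsym : ∀ i j, M i j + M j i = 0 := fun i j => by
    rw [show M j i = M i j by simp [M, and_comm], CharTwo.add_self_eq_zero]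
  have hs := shift_pair hN.toIsNilSelf (polarBilin_isAlt Q) (σ := id) (fun a => rfl) hx.pair M
  have hp : ∀ a b, polarBilin Q (x a) (N (x b)) = if a = b then 1 else 0 := hx.pair
  refine ⟨_, ⟨fun i j => by rw [hs.1, hx.orth, hMsym, add_zero], hs.2, hx.card⟩, ?_, fun i hi => ?_⟩
  · rw [shift_value hN (σ := id) (fun a => rfl) hx.pair]
    simp only [id, map_sum, map_smul, LinearMap.sum_apply, LinearMap.smul_apply, hp, smul_eq_mul, mul_ite, mul_one,
      mul_zero, Finset.sum_ite_eq', Finset.mem_univ, if_true]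
    rw [Finset.sum_eq_single i₀ (fun k _ hk => by simp [M, hk]) (by simp)]
    simp [M]; ring
  · simp [M, hi]

/-- A vector of the complement of the support with prescribed value. -/
theorem Adapted.exists_compl_value [Finite F] (hQ : (polarBilin Q).Nondegenerate) (hN : IsQuadNil Q N)
    (hσ : Function.Involutive σ) (hx : Adapted (polarBilin Q) N σ x)
    (hlt : 2 * Fintype.card ι < finrank F V) (d : F) :
    ∃ w, (∀ i, polarBilin Q (x i) w = 0 ∧ polarBilin Q (N (x i)) w = 0) ∧ N w = 0 ∧ Q w = d := by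
  have hA := polarBilin_isAlt Q
  let P : V → V := fun v => v - lin N x (coords (polarBilin Q) N σ x v)
  have hP : ∀ v i, polarBilin Q (x i) (P v) = 0 ∧ polarBilin Q (N (x i)) (P v) = 0 := fun v i =>
    hx.compl_orth hN.toIsNilSelf hσ v i
  obtain ⟨v, hv⟩ : ∃ v, v ∉ LinearMap.range (lin N x) := by
    by_contra h
    push Not at h
    have h1 := LinearMap.finrank_range_of_inj (hx.lin_injective hN.toIsNilSelf hσ)
    rw [Submodule.eq_top_iff'.mpr h, finrank_top, Module.finrank_fintype_fun_eq_card, Fintype.card_sum] at h1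
    omega
  have hw0 : P v ≠ 0 := fun h => hv ⟨_, (sub_eq_zero.mp h).symm⟩
  obtain ⟨u, hu⟩ : ∃ u, polarBilin Q (P v) u ≠ 0 := by
    by_contra h
    push Not at h
    exact hw0 (hQ.1 _ h)
  have hu' : polarBilin Q (P v) (P u) ≠ 0 := by
    have horth : ∀ c, polarBilin Q (P v) (lin N x c) = 0 := fun c => by
      rw [lin_apply]
      have e1 : ∀ i, polarBilin Q (P v) (x i) = 0 := fun i => (symm_of_alt hA _ _).trans (hP v i).1
      have e2 : ∀ i, polarBilin Q (P v) (N (x i)) = 0 := fun i => (symm_of_alt hA _ _).trans (hP v i).2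
      generalize P v = a at e1 e2 ⊢
      simp only [map_add, map_sum, map_smul, e1, e2, smul_zero, Finset.sum_const_zero, add_zero]
    have this : polarBilin Q (P v) (P u) = polarBilin Q (P v) u := by
      rw [show P u = u - lin N x (coords (polarBilin Q) N σ x u) from rfl, map_sub, horth, sub_zero]
    rw [this]; exact hu
  obtain ⟨a, ha, ha0⟩ : ∃ a, (∀ i, polarBilin Q (x i) a = 0 ∧ polarBilin Q (N (x i)) a = 0) ∧ Q a ≠ 0 := by
    by_cases h1 : Q (P v) ≠ 0
    · exact ⟨_, hP v, h1⟩
    by_cases h2 : Q (P u) ≠ 0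
    · exact ⟨_, hP u, h2⟩
    push Not at h1 h2
    exact ⟨P v + P u, fun i => by simp only [map_add, (hP v i).1, (hP v i).2, (hP u i).1, (hP u i).2, add_zero, and_self],
      by rw [map_add_polar, h1, h2, add_zero, zero_add]; exact hu'⟩
  obtain ⟨t, ht⟩ := exists_sq (d / Q a)
  refine ⟨t • a, fun i => by simp only [map_smul, (ha i).1, (ha i).2, smul_zero, and_self], ?_, ?_⟩
  · exact hx.map_eq_zero hQ hA hN.toIsNilSelf hσ fun i => by rw [map_smul, (ha i).2, smul_zero]
  · rw [map_smul_sq, ht, div_mul_cancel₀ _ ha0]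

/-- Clearing the first value when the support is not the whole space. -/
theorem Adapted.exists_clear [Finite F] (hQ : (polarBilin Q).Nondegenerate) (hN : IsQuadNil Q N)
    (hx : Adapted (polarBilin Q) N (id : ι → ι) x) (hlt : 2 * Fintype.card ι < finrank F V) (i₀ : ι) :
    ∃ x' : ι → V, Adapted (polarBilin Q) N id x' ∧ Q (x' i₀) = 0 ∧ ∀ i, i ≠ i₀ → Q (x' i) = Q (x i) := by
  have hA := polarBilin_isAlt Q
  obtain ⟨w, hw, hNw, hQw⟩ := hx.exists_compl_value hQ hN (fun a => rfl) hlt (Q (x i₀))
  have hwN : ∀ j, polarBilin Q w (N (x j)) = 0 := fun j => by rw [symm_of_alt hA]; exact (hw j).2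
  refine ⟨fun i => if i = i₀ then x i + w else x i, ⟨fun i j => ?_, fun i j => ?_, hx.card⟩, ?_, fun i hi => by simp [hi]⟩
  · by_cases hi : i = i₀ <;> by_cases hj : j = i₀ <;>
      simp only [hi, hj, if_true, if_false, map_add, LinearMap.add_apply, hx.orth, (hw _).1, symm_of_alt hA w (x _),
        hA.self_eq_zero, add_zero]
  · by_cases hi : i = i₀ <;> by_cases hj : j = i₀ <;>
      simp only [hi, hj, if_true, if_false, map_add, LinearMap.add_apply, hx.pair, hNw, hwN, add_zero]
  · simp only [if_true]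
    rw [map_add_polar, (hw _).1, hQw, add_zero, CharTwo.add_self_eq_zero]

/-- A criterion for having no totally singular subspace of half the dimension. -/
theorem no_half_singular (hQ : (polarBilin Q).Nondegenerate) {s : ℕ} (hs : finrank F V = 2 * s) (T : Submodule F V)
    (hTd : finrank F T + 1 = s) (hT : ∀ v, (∀ t ∈ T, polarBilin Q t v = 0) → Q v = 0 → v ∈ T)
    (W : Submodule F V) (hW : ∀ w ∈ W, Q w = 0) : finrank F W ≠ s := by
  intro hWd
  have hWle : W ≤ LinearMap.BilinForm.orthogonal (polarBilin Q) W := fun v hv w hw => by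
    have := map_add_polar Q w v
    rw [hW _ (W.add_mem hw hv), hW w hw, hW v hv, zero_add, zero_add] at this
    exact this.symm
  have hWeq : W = LinearMap.BilinForm.orthogonal (polarBilin Q) W := Submodule.eq_of_le_of_finrank_eq hWle (by
    rw [LinearMap.BilinForm.finrank_orthogonal hQ, hs, hWd]; omega)
  have hle : LinearMap.BilinForm.orthogonal (polarBilin Q) (W ⊔ T) ≤ W ⊓ T := fun v hv => by
    have hvW : v ∈ W := by rw [hWeq]; exact fun w hw => hv w (Submodule.mem_sup_left hw)
    exact ⟨hvW, hT v (fun t ht => hv t (Submodule.mem_sup_right ht)) (hW v hvW)⟩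
  have h1 := Submodule.finrank_mono hle
  rw [LinearMap.BilinForm.finrank_orthogonal hQ, hs] at h1
  have h2 := Submodule.finrank_sup_add_finrank_inf_eq W T
  rw [hWd] at h2
  omega

/-- A representative of the non-trivial coset of `{c² + c}`. -/
theorem exists_arf_rep [Finite F] :
    ∃ δ : F, (∀ c : F, c * c + c ≠ δ) ∧ ∀ a : F, (∃ c, c * c + c = a) ∨ ∃ c, c * c + c = a + δ := by
  classical
  let φ : F →+ F := AddMonoidHom.mk' (fun c => c * c + c) fun a b => by
    show (a + b) * (a + b) + (a + b) = (a * a + a) + (b * b + b)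
    rw [CharTwo.add_mul_self]; abel
  have hker : Nat.card φ.ker = 2 := by
    have h : (φ.ker : Set F) = {0, 1} := by
      ext c
      simp only [SetLike.mem_coe, AddMonoidHom.mem_ker, Set.mem_insert_iff, Set.mem_singleton_iff]
      show c * c + c = 0 ↔ _
      constructor
      · intro h
        have : c * (c + 1) = 0 := by linear_combination h
        exact (mul_eq_zero.mp this).imp id CharTwo.add_eq_zero.mp
      · rintro (rfl | rfl) <;> simp [CharTwo.add_self_eq_zero]
    rw [← SetLike.coe_sort_coe, Nat.card_coe_set_eq, h, Set.ncard_pair zero_ne_one]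
  have hidx : φ.range.index = 2 := by
    have h1 := φ.ker.card_mul_index
    have h2 := φ.range.card_mul_index
    rw [AddSubgroup.index_ker, hker] at h1
    have hpos : 0 < Nat.card φ.range := Nat.card_pos
    exact Nat.eq_of_mul_eq_mul_left hpos (h2.trans (h1.symm.trans (mul_comm _ _)))
  obtain ⟨δ, hδ⟩ : ∃ δ, δ ∉ φ.range := by
    by_contra h
    push Not at h
    rw [(AddSubgroup.eq_top_iff' _).mpr h, AddSubgroup.index_top] at hidx
    omega
  refine ⟨δ, fun c hc => hδ ⟨c, hc⟩, fun a => ?_⟩
  by_cases ha : a ∈ φ.range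
  · exact Or.inl ha
  · exact Or.inr ((AddSubgroup.add_mem_iff_of_index_two hidx).mpr (iff_of_false ha hδ))

/-- The form on a whole-space support with one anisotropic pair. -/
theorem Adapted.mem_of_singular (hN : IsQuadNil Q N) (hx : Adapted (polarBilin Q) N (id : ι → ι) x)
    (hfull : finrank F V = 2 * Fintype.card ι) {i₀ : ι} {δ : F} (hδ : ∀ c : F, c * c + c ≠ δ)
    (h0 : Q (x i₀) = δ) (hrest : ∀ i, i ≠ i₀ → Q (x i) = 0) (v : V)
    (hv : ∀ i, i ≠ i₀ → polarBilin Q (x i) v = 0) (hQv : Q v = 0) :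
    v ∈ Submodule.span F (Set.range fun i : {i // i ≠ i₀} => x i) := by
  classical
  have hinv : Function.Involutive (id : ι → ι) := fun a => rfl
  have hsurj : Function.Surjective (lin N x) :=
    (LinearMap.injective_iff_surjective_of_finrank_eq_finrank
      (by rw [Module.finrank_fintype_fun_eq_card, Fintype.card_sum, hfull, two_mul])).mp (hx.lin_injective hN.toIsNilSelf hinv)
  obtain ⟨c, rfl⟩ := hsurj v
  have hb : ∀ i, i ≠ i₀ → c (Sum.inr i) = 0 := fun i hi => by
    have h := hv i hi
    rwa [(hx.pair_lin hN.toIsNilSelf hinv c i).1] at h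
  have hz : lin N x c = (c (Sum.inl i₀) • x i₀ + c (Sum.inr i₀) • N (x i₀)) +
      ∑ i ∈ Finset.univ.erase i₀, c (Sum.inl i) • x i := by
    have e2 : ∑ i, c (Sum.inr i) • N (x i) = c (Sum.inr i₀) • N (x i₀) :=
      Finset.sum_eq_single i₀ (fun i _ hi => by rw [hb i hi, zero_smul]) (by simp)
    rw [lin_apply, e2, ← Finset.add_sum_erase _ _ (Finset.mem_univ i₀)]
    abel
  have hp : ∀ a b, polarBilin Q (N (x a)) (x b) = if b = a then 1 else 0 := fun a b => by
    rw [symm_of_alt (polarBilin_isAlt Q), hx.pair]; rfl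
  rw [hz, map_add_polar] at hQv
  rw [map_sum_orth Q _ _ (fun i _ j _ => by simp only [map_smul, LinearMap.smul_apply, hx.orth, smul_zero]),
    Finset.sum_eq_zero (s := Finset.univ.erase i₀) (fun i hi => by rw [map_smul_sq, hrest i (Finset.ne_of_mem_erase hi), mul_zero]),
    map_sum, Finset.sum_eq_zero (s := Finset.univ.erase i₀) (fun i hi => by
      simp only [map_add, map_smul, LinearMap.add_apply, LinearMap.smul_apply, hx.orth, hp,
        if_neg (Finset.ne_of_mem_erase hi), smul_zero, add_zero]),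
    add_zero, add_zero, map_add_polar, map_smul_sq, map_smul_sq, h0, hx.value_map hN, id_eq, if_pos rfl] at hQv
  simp only [map_smul, LinearMap.smul_apply, hx.pair, id, if_true, smul_eq_mul, mul_one] at hQv
  have ha : c (Sum.inl i₀) = 0 := by
    by_contra ha
    refine hδ (c (Sum.inr i₀) / c (Sum.inl i₀)) (CharTwo.add_eq_zero.mp ?_)
    field_simp
    linear_combination hQv
  have hb0 : c (Sum.inr i₀) = 0 := by
    rw [ha] at hQv
    simpa using hQv
  rw [hz, ha, hb0, zero_smul, zero_smul, add_zero, zero_add]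
  exact Submodule.sum_mem _ fun i hi => Submodule.smul_mem _ _ (Submodule.subset_span ⟨⟨i, Finset.ne_of_mem_erase hi⟩, rfl⟩)

theorem Adapted.linearIndependent_base (hN : IsNilSelf (polarBilin Q) N) (hσ : Function.Involutive σ)
    (hx : Adapted (polarBilin Q) N σ x) : LinearIndependent F x := by
  refine Fintype.linearIndependent_iff.mpr fun g hg i => ?_
  have : lin N x (Sum.elim g 0) = 0 := by simpa [lin_apply] using hg
  exact congrFun ((injective_iff_map_eq_zero _).mp (hx.lin_injective hN hσ) _ this) (Sum.inl i)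

/-- A family with all values zero or one with a single value `δ`. -/
theorem exists_adapted_reduced [Finite F] (hQ : (polarBilin Q).Nondegenerate) (hN : IsQuadNil Q N)
    (h : ¬IsAltType (polarBilin Q) N) (δ : F) (hδ : ∀ a : F, (∃ c, c * c + c = a) ∨ ∃ c, c * c + c = a + δ) :
    ∃ (x : Fin (finrank F (LinearMap.range N)) → V) (i₀ : Fin (finrank F (LinearMap.range N))),
      Adapted (polarBilin Q) N id x ∧ (∀ i, i ≠ i₀ → Q (x i) = 0) ∧ (Q (x i₀) = 0 ∨
        (finrank F V = 2 * finrank F (LinearMap.range N) ∧ Q (x i₀) = δ)) := by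
  obtain ⟨x, i₀, hx, hx0⟩ := exists_adapted_orth hQ hN h
  have hle := two_mul_rank_le hQ (polarBilin_isAlt Q) hN.toIsNilSelf
  rcases hle.lt_or_eq with hlt | heq
  · obtain ⟨x', hx', h0, hr⟩ := hx.exists_clear hQ hN (by rwa [Fintype.card_fin]) i₀
    exact ⟨x', i₀, hx', fun i hi => (hr i hi).trans (hx0 i hi), Or.inl h0⟩
  · rcases hδ (Q (x i₀)) with ⟨c, hc⟩ | ⟨c, hc⟩
    · obtain ⟨x', hx', h0, hr⟩ := hx.exists_shift_first hN i₀ c
      exact ⟨x', i₀, hx', fun i hi => (hr i hi).trans (hx0 i hi), Or.inl (by rw [h0, hc, CharTwo.add_self_eq_zero])⟩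
    · obtain ⟨x', hx', h0, hr⟩ := hx.exists_shift_first hN i₀ c
      exact ⟨x', i₀, hx', fun i hi => (hr i hi).trans (hx0 i hi), Or.inr ⟨heq.symm,
        by rw [h0, hc, ← add_assoc, CharTwo.add_self_eq_zero, zero_add]⟩⟩

/-- Classification under isometries of the quadratic form. -/
theorem exists_quad_conj [Finite F] (hQ : (polarBilin Q).Nondegenerate) (hN : IsQuadNil Q N) {N' : V →ₗ[F] V}
    (hN' : IsQuadNil Q N') (hr : finrank F (LinearMap.range N) = finrank F (LinearMap.range N'))
    (ht : IsAltType (polarBilin Q) N ↔ IsAltType (polarBilin Q) N') :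
    ∃ g : V ≃ₗ[F] V, (∀ v, Q (g v) = Q v) ∧ ∀ v, g (N v) = N' (g v) := by
  classical
  by_cases h : IsAltType (polarBilin Q) N
  · obtain ⟨l, x, hx, hq⟩ := exists_adapted_alt hQ hN h
    obtain ⟨l', x', hx', hq'⟩ := exists_adapted_alt hQ hN' (ht.mp h)
    have hl := hx.card
    have hl' := hx'.card
    simp only [Fintype.card_sum, Fintype.card_fin] at hl hl'
    obtain rfl : l = l' := by omega
    exact exists_quad_conj_of_adapted hQ hN (fun a => Sum.swap_swap a) hx hN' hx' fun i => (hq i).trans (hq' i).symm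
  obtain ⟨δ, hδ1, hδ2⟩ := exists_arf_rep (F := F)
  obtain ⟨x, i, hx, hx0, hxi⟩ := exists_adapted_reduced hQ hN h δ hδ2
  obtain ⟨x', i', hx', hx0', hxi'⟩ : ∃ (x' : Fin (finrank F (LinearMap.range N)) → V) (i' : Fin (finrank F (LinearMap.range N))),
      Adapted (polarBilin Q) N' id x' ∧ (∀ j, j ≠ i' → Q (x' j) = 0) ∧ (Q (x' i') = 0 ∨
        (finrank F V = 2 * finrank F (LinearMap.range N) ∧ Q (x' i') = δ)) :=
    hr ▸ exists_adapted_reduced hQ hN' (ht.not.mp h) δ hδ2
  have key : ∀ {M M' : V →ₗ[F] V} (_ : IsQuadNil Q M) (_ : IsQuadNil Q M')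
      (y y' : Fin (finrank F (LinearMap.range N)) → V) (j : Fin (finrank F (LinearMap.range N))),
      Adapted (polarBilin Q) M id y → Adapted (polarBilin Q) M' id y' → (∀ k, k ≠ j → Q (y k) = 0) → Q (y j) = δ →
      finrank F V = 2 * finrank F (LinearMap.range N) → (∀ k, Q (y' k) = 0) → False := by
    intro M M' hM hM' y y' j hy hy' hy0 hyj hfull hy'0
    have hiW : ∀ w ∈ Submodule.span F (Set.range y'), Q w = 0 := by
      intro w hw
      obtain ⟨c, rfl⟩ := (Submodule.mem_span_range_iff_exists_fun F).mp hw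
      rw [map_sum_orth Q _ _ (fun a _ b _ => by simp only [map_smul, LinearMap.smul_apply, hy'.orth, smul_zero])]
      exact Finset.sum_eq_zero fun k _ => by rw [map_smul_sq, hy'0, mul_zero]
    have hT := hy.mem_of_singular hM (by rw [Fintype.card_fin]; exact hfull) hδ1 hyj hy0
    have hli : LinearIndependent F fun k : {k // k ≠ j} => y k :=
      (hy.linearIndependent_base hM.toIsNilSelf fun a => rfl).comp _ Subtype.val_injective
    refine no_half_singular hQ hfull (Submodule.span F (Set.range fun k : {k // k ≠ j} => y k)) ?_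
      (fun v hv hQv => hT v (fun k hk => hv _ (Submodule.subset_span ⟨⟨k, hk⟩, rfl⟩)) hQv) _ hiW ?_
    · rw [finrank_span_eq_card hli, Fintype.card_subtype_compl, Fintype.card_subtype_eq, Fintype.card_fin]
      have := j.isLt
      omega
    · rw [finrank_span_eq_card (hy'.linearIndependent_base hM'.toIsNilSelf fun a => rfl), Fintype.card_fin]
  have hxq : ∀ (y : Fin (finrank F (LinearMap.range N)) → V) j, (∀ k, k ≠ j → Q (y k) = 0) → Q (y j) = 0 → ∀ k, Q (y k) = 0 :=
    fun y j h1 h2 k => if hk : k = j then hk ▸ h2 else h1 k hk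
  rcases hxi with hxi | ⟨hf, hxi⟩ <;> rcases hxi' with hxi' | ⟨hf', hxi'⟩
  · exact exists_quad_conj_of_adapted hQ hN (fun a => rfl) hx hN' hx'
      fun k => (hxq x i hx0 hxi k).trans (hxq x' i' hx0' hxi' k).symm
  · exact (key hN' hN x' x i' hx' hx hx0' hxi' hf' (hxq x i hx0 hxi)).elim
  · exact (key hN hN' x x' i hx hx' hx0 hxi hf (hxq x' i' hx0' hxi')).elim
  · let e := Equiv.swap i i'
    have hx'' : Adapted (polarBilin Q) N' id (x' ∘ e) := ⟨fun a b => hx'.orth _ _, fun a b => by
      rw [Function.comp_apply, Function.comp_apply, hx'.pair]; simp [e.injective.eq_iff], hx'.card⟩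
    refine exists_quad_conj_of_adapted hQ hN (fun a => rfl) hx hN' hx'' fun k => ?_
    by_cases hk : k = i
    · subst hk; simp [e, hxi, hxi']
    · rw [hx0 k hk, Function.comp_apply, hx0' (e k) fun he => hk (e.injective (he.trans (Equiv.swap_apply_left i i').symm))]

/-- Totally singular image characterises the alternating type. -/
theorem IsQuadNil.singular_range (hN : IsQuadNil Q N) (h : IsAltType (polarBilin Q) N) :
    ∀ w ∈ LinearMap.range N, Q w = 0 := by
  rintro _ ⟨v, rfl⟩
  rw [hN.value]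
  exact h v

/-- Existence of involutions with prescribed image. -/
theorem stdNil_quad (hQ : (polarBilin Q).Nondegenerate) (hσ : Function.Involutive σ) {r : ι → V}
    (hr : LinearIndependent F r) (hiso : ∀ i j, polarBilin Q (r i) (r j) = 0)
    (hq : ∀ i, Q (r i) = if σ i = i then 1 else 0) (hcase : (∀ i, σ i = i) ∨ ∀ i, σ i ≠ i) :
    IsQuadNil Q (stdNil (polarBilin Q) σ r) := by
  obtain ⟨hN, -, halt, -⟩ := stdNil_spec hQ (polarBilin_isAlt Q) hσ hr hiso
  refine ⟨hN, fun v => ?_⟩
  conv_lhs => rw [stdNil_apply, map_sum_orth Q _ _ (fun i _ j _ => by simp only [map_smul, LinearMap.smul_apply, hiso, smul_zero])]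
  rcases hcase with hid | hfp
  · simp only [map_smul_sq, hq, hid, if_true, mul_one, stdNil_apply, map_sum, map_smul, smul_eq_mul]
  · rw [halt hfp v]
    exact Finset.sum_eq_zero fun i _ => by rw [map_smul_sq, hq, if_neg (hfp i), mul_zero]

end Normal

end CfsgLib.Classes.InvTwo
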