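import Cfsg.Agent.Lib.Forms.WittAlternating
import Cfsg.Agent.Lib.Forms.Symplectic
import Cfsg.Agent.Lib.Forms.SymmOrtho

/-!
Involutions of symplectic spaces in characteristic two: normal forms of self-adjoint maps of square zero
(Aschbacher–Seitz).
-/

set_option autoImplicit false
set_option linter.unusedSectionVars false
set_option linter.unusedVariables false

namespace CfsgLib.Classes.InvTwo

open Module

variable {F V : Type*} [Field F] [AddCommGroup V] [Module F V]

/-- A self-adjoint map of square zero: `1 + N` is an isometry of order at most two. -/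
structure IsNilSelf (B : LinearMap.BilinForm F V) (N : V →ₗ[F] V) : Prop where
  sq : ∀ v, N (N v) = 0
  selfAdj : ∀ u v, B (N u) v = B u (N v)

/-- The form `B(v, Nv)` vanishes identically. -/
def IsAltType (B : LinearMap.BilinForm F V) (N : V →ₗ[F] V) : Prop := ∀ v, B v (N v) = 0

/-- A family splitting off the support of `N`. -/
structure Adapted (B : LinearMap.BilinForm F V) (N : V →ₗ[F] V) {ι : Type} [Fintype ι] [DecidableEq ι]
    (σ : ι → ι) (x : ι → V) : Prop where
  orth : ∀ i j, B (x i) (x j) = 0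
  pair : ∀ i j, B (x i) (N (x j)) = if σ i = j then 1 else 0
  card : Fintype.card ι = finrank F (LinearMap.range N)

theorem exists_sq [Finite F] [CharP F 2] (c : F) : ∃ t : F, t * t = c := by
  obtain ⟨t, ht⟩ := FiniteField.isSquare_of_char_two (ringChar.eq F 2) c
  exact ⟨t, ht.symm⟩

section Basic

variable [CharP F 2] {B : LinearMap.BilinForm F V} {N : V →ₗ[F] V}

theorem symm_of_alt (hA : B.IsAlt) (u v : V) : B u v = B v u := by
  rw [← LinearMap.IsAlt.neg hA u v, CharTwo.neg_eq]

theorem IsNilSelf.beta_comm (hA : B.IsAlt) (hN : IsNilSelf B N) (u v : V) : B u (N v) = B v (N u) := by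
  rw [← hN.selfAdj, symm_of_alt hA]

omit [CharP F 2] in
theorem IsNilSelf.isotropic (hN : IsNilSelf B N) (u v : V) : B (N u) (N v) = 0 := by
  rw [hN.selfAdj, hN.sq, map_zero]

end Basic

/-- An orthonormal family of a symmetric non-alternating form in characteristic two. -/
theorem exists_orthonormal [Finite F] [CharP F 2] [FiniteDimensional F V] (β : LinearMap.BilinForm F V)
    (hS : β.IsSymm) :
    ∀ (k : ℕ) (W : Submodule F V), finrank F W = k → (∀ w ∈ W, (∀ w' ∈ W, β w w' = 0) → w = 0) →
      (∃ w ∈ W, β w w ≠ 0) → ∃ x : Fin k → V, (∀ i, x i ∈ W) ∧ ∀ i j, β (x i) (x j) = if i = j then 1 else 0 := by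
  intro k
  induction k with
  | zero =>
    intro W hW _ hne
    obtain ⟨w, hw, hw0⟩ := hne
    rw [Submodule.finrank_eq_zero] at hW
    rw [hW, Submodule.mem_bot] at hw
    subst hw
    simp at hw0
  | succ k ih =>
    intro W hW hnd hne
    suffices h : ∃ e ∈ W, β e e = 1 ∧ (k = 0 ∨ ∃ w ∈ W ⊓ LinearMap.ker (β e), β w w ≠ 0) by
      obtain ⟨e, he, he1, hrec⟩ := h
      obtain ⟨hd, hnd'⟩ := CfsgLib.Forms.symm_split β hS W e he (by rw [he1]; exact one_ne_zero) hnd
      obtain ⟨x, hxW, hx⟩ : ∃ x : Fin k → V, (∀ i, x i ∈ W ⊓ LinearMap.ker (β e)) ∧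
          ∀ i j, β (x i) (x j) = if i = j then 1 else 0 := by
        rcases hrec with rfl | hrec
        · exact ⟨Fin.elim0, fun i => i.elim0, fun i => i.elim0⟩
        · exact ih _ (by omega) hnd' hrec
      refine ⟨Fin.cons e x, fun i => ?_, fun i j => ?_⟩
      · refine Fin.cases ?_ (fun i => ?_) i
        · simpa using he
        · simpa using (hxW i).1
      · refine Fin.cases ?_ (fun i => ?_) i <;> refine Fin.cases ?_ (fun j => ?_) j
        · simpa using he1
        · simpa [(Fin.succ_ne_zero j).symm] using LinearMap.mem_ker.mp (hxW j).2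
        · simpa [Fin.succ_ne_zero, hS.eq (x i) e] using LinearMap.mem_ker.mp (hxW i).2
        · simpa using hx i j
    obtain ⟨w, hw, hw0⟩ := hne
    obtain ⟨t, ht⟩ := exists_sq (β w w)⁻¹
    set e := t • w with he
    have he1 : β e e = 1 := by
      simp only [he, map_smul, LinearMap.smul_apply, smul_eq_mul]
      rw [← mul_assoc, ht, inv_mul_cancel₀ hw0]
    have heW : e ∈ W := W.smul_mem t hw
    by_cases hk : k = 0
    · exact ⟨e, heW, he1, Or.inl hk⟩
    by_cases hna : ∃ w ∈ W ⊓ LinearMap.ker (β e), β w w ≠ 0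
    · exact ⟨e, heW, he1, Or.inr hna⟩
    push Not at hna
    obtain ⟨hd, hnd'⟩ := CfsgLib.Forms.symm_split β hS W e heW (by rw [he1]; exact one_ne_zero) hnd
    obtain ⟨a, ha, ha0⟩ := (Submodule.ne_bot_iff (W ⊓ LinearMap.ker (β e))).mp fun h => by
      rw [h, finrank_bot] at hd; omega
    obtain ⟨f, hf, hf0⟩ : ∃ f ∈ W ⊓ LinearMap.ker (β e), β a f ≠ 0 := by
      by_contra hc
      push Not at hc
      exact ha0 (hnd' a ha hc)
    set f' := (β a f)⁻¹ • f with hf'
    have hf'm : f' ∈ W ⊓ LinearMap.ker (β e) := Submodule.smul_mem _ _ hf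
    have haf : β a f' = 1 := by rw [hf', map_smul, smul_eq_mul, inv_mul_cancel₀ hf0]
    have hea : β e a = 0 := LinearMap.mem_ker.mp ha.2
    have hef : β e f' = 0 := LinearMap.mem_ker.mp hf'm.2
    refine ⟨e + a, W.add_mem heW ha.1, ?_, Or.inr ⟨e + f', ⟨W.add_mem heW hf'm.1, LinearMap.mem_ker.mpr ?_⟩, ?_⟩⟩
    · simp only [map_add, LinearMap.add_apply, he1, hea, hna a ha, hS.eq a e, add_zero]
    · simp only [map_add, LinearMap.add_apply, he1, hef, haf, hS.eq a e, hea, add_zero, zero_add, CharTwo.add_self_eq_zero]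
    · simp only [map_add, LinearMap.add_apply, he1, hef, hna f' hf'm, hS.eq f' e, add_zero]
      exact one_ne_zero

section Adapt

variable [CharP F 2] [FiniteDimensional F V] {B : LinearMap.BilinForm F V} {N : V →ₗ[F] V}

/-- Families with the Gram matrix of an adapted family, before the correction. -/
theorem exists_pair_family [Finite F] (hB : B.Nondegenerate) (hA : B.IsAlt) (hN : IsNilSelf B N) :
    (IsAltType B N → ∃ (l : ℕ) (x : Fin l ⊕ Fin l → V), 2 * l = finrank F (LinearMap.range N) ∧
      ∀ i j, B (x i) (N (x j)) = if Sum.swap i = j then 1 else 0) ∧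
    (¬IsAltType B N → ∃ x : Fin (finrank F (LinearMap.range N)) → V,
      ∀ i j, B (x i) (N (x j)) = if i = j then 1 else 0) := by
  obtain ⟨W, hW⟩ := Submodule.exists_isCompl (LinearMap.ker N)
  set β : LinearMap.BilinForm F V := B.compl₂ N with hβ
  have hβa : ∀ u v, β u v = B u (N v) := fun u v => rfl
  have hS : β.IsSymm := ⟨fun u v => hN.beta_comm hA u v⟩
  have hdec : ∀ v, ∃ w ∈ W, ∃ z ∈ LinearMap.ker N, w + z = v := fun v =>
    Submodule.mem_sup.mp (by rw [sup_comm, hW.sup_eq_top]; trivial : v ∈ W ⊔ LinearMap.ker N)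
  have hnd : ∀ w ∈ W, (∀ w' ∈ W, β w w' = 0) → w = 0 := by
    intro w hw h
    have hk : N w = 0 := hB.2 _ fun v => by
      obtain ⟨w', hw', z, hz, rfl⟩ := hdec v
      have h' : B w' (N w) = 0 := by rw [← hβa]; exact (hS.eq w' w).trans (h w' hw')
      rw [map_add, LinearMap.add_apply, h', hN.beta_comm hA z w, LinearMap.mem_ker.mp hz, map_zero, add_zero]
    have := hW.inf_eq_bot
    rw [Submodule.eq_bot_iff] at this
    exact this w ⟨hk, hw⟩
  have hdim : finrank F W = finrank F (LinearMap.range N) := by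
    have h1 := Submodule.finrank_add_eq_of_isCompl hW
    have h2 := LinearMap.finrank_range_add_finrank_ker N
    omega
  refine ⟨fun halt => ?_, fun halt => ?_⟩
  · have hWnd : (β.restrict W).Nondegenerate := by
      refine ⟨fun w h => Subtype.ext (hnd w w.2 fun w' hw' => h ⟨w', hw'⟩),
        fun w h => Subtype.ext (hnd w w.2 fun w' hw' => ?_)⟩
      exact (hS.eq (w : V) w').trans (h ⟨w', hw'⟩)
    have hWalt : (β.restrict W).IsAlt := fun w => halt w
    obtain ⟨l, b, h1, h2, h3⟩ := CfsgLib.Forms.exists_symplectic_basis (β.restrict W) hWnd hWalt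
    have hl : 2 * l = finrank F (LinearMap.range N) := by
      rw [← hdim, Module.finrank_eq_card_basis b]; simp [two_mul]
    refine ⟨l, fun i => (b i : V), hl, ?_⟩
    rintro (i | i) (j | j) <;> show β (b _ : V) (b _ : V) = _
    · simpa using h2 i j
    · simpa using h1 i j
    · rw [hS.eq]
      simpa [eq_comm] using h1 j i
    · simpa using h3 i j
  · have hne : ∃ w ∈ W, β w w ≠ 0 := by
      unfold IsAltType at halt
      push Not at halt
      obtain ⟨v, hv⟩ := halt
      obtain ⟨w, hw, z, hz, rfl⟩ := hdec v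
      refine ⟨w, hw, fun h => hv ?_⟩
      rw [map_add N, LinearMap.mem_ker.mp hz, add_zero, map_add, LinearMap.add_apply, ← hβa, h, zero_add,
        hN.beta_comm hA z w, LinearMap.mem_ker.mp hz, map_zero]
    obtain ⟨x, -, hx⟩ := exists_orthonormal β hS _ W hdim hnd hne
    exact ⟨x, hx⟩

variable {ι : Type} [Fintype ι] [DecidableEq ι] {σ : ι → ι} {x : ι → V}

/-- The Gram matrix of a family shifted along `range N`. -/
theorem shift_pair (hN : IsNilSelf B N) (hA : B.IsAlt) (hσ : Function.Involutive σ)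
    (hp : ∀ i j, B (x i) (N (x j)) = if σ i = j then 1 else 0) (M : ι → ι → F) :
    (∀ i j, B (x i + ∑ k, M i k • N (x (σ k))) (x j + ∑ k, M j k • N (x (σ k))) = B (x i) (x j) + (M i j + M j i)) ∧
    ∀ i j, B (x i + ∑ k, M i k • N (x (σ k))) (N (x j + ∑ k, M j k • N (x (σ k)))) = if σ i = j then 1 else 0 := by
  have hz : ∀ i k, B (x i) (N (x (σ k))) = if i = k then 1 else 0 := fun i k => by
    rw [hp]; simp only [hσ.injective.eq_iff]
  have h1 : ∀ i j, B (x i) (∑ k, M j k • N (x (σ k))) = M j i := fun i j => by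
    simp only [map_sum, map_smul, hz, smul_eq_mul, mul_ite, mul_one, mul_zero, Finset.sum_ite_eq, Finset.mem_univ, if_true]
  have h2 : ∀ i j, B (∑ k, M i k • N (x (σ k))) (∑ k, M j k • N (x (σ k))) = 0 := fun i j => by
    simp only [map_sum, map_smul, LinearMap.sum_apply, LinearMap.smul_apply, hN.isotropic, smul_zero, Finset.sum_const_zero]
  refine ⟨fun i j => ?_, fun i j => ?_⟩
  · rw [map_add, map_add, LinearMap.add_apply, LinearMap.add_apply, h1, h2, symm_of_alt hA (∑ k, M i k • N (x (σ k))) (x j), h1]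
    abel
  · have hN0 : N (∑ k, M j k • N (x (σ k))) = 0 := by
      simp only [map_sum, map_smul, hN.sq, smul_zero, Finset.sum_const_zero]
    rw [map_add N, hN0, add_zero, map_add, LinearMap.add_apply, hp]
    simp only [map_sum, map_smul, LinearMap.sum_apply, LinearMap.smul_apply, hN.isotropic, smul_zero,
      Finset.sum_const_zero, add_zero]

omit [FiniteDimensional F V] in
/-- A correction making a family orthogonal, with arbitrary diagonal. -/
theorem exists_correction (hA : B.IsAlt) (d : ι → F) :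
    ∃ M : ι → ι → F, (∀ i, M i i = d i) ∧ ∀ i j, B (x i) (x j) + (M i j + M j i) = 0 := by
  classical
  let e := Fintype.equivFin ι
  refine ⟨fun i j => if i = j then d i else if e i < e j then B (x i) (x j) else 0, fun i => by simp, fun i j => ?_⟩
  rcases lt_trichotomy (e i) (e j) with h | h | h
  · have hne : i ≠ j := fun he => by rw [he] at h; exact lt_irrefl _ h
    simp [hne, Ne.symm hne, h, not_lt.mpr h.le, CharTwo.add_self_eq_zero]
  · obtain rfl := e.injective h
    simp [hA.self_eq_zero (x i), CharTwo.add_self_eq_zero]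
  · have hne : i ≠ j := fun he => by rw [he] at h; exact lt_irrefl _ h
    simp [hne, Ne.symm hne, h, not_lt.mpr h.le, symm_of_alt hA (x j) (x i), CharTwo.add_self_eq_zero]

/-- Adapted families exist. -/
theorem exists_adapted [Finite F] (hB : B.Nondegenerate) (hA : B.IsAlt) (hN : IsNilSelf B N) :
    (IsAltType B N → ∃ (l : ℕ) (x : Fin l ⊕ Fin l → V), Adapted B N Sum.swap x) ∧
    (¬IsAltType B N → ∃ x : Fin (finrank F (LinearMap.range N)) → V, Adapted B N id x) := by
  refine ⟨fun h => ?_, fun h => ?_⟩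
  · obtain ⟨l, x, hl, hx⟩ := (exists_pair_family hB hA hN).1 h
    obtain ⟨M, -, hM⟩ := exists_correction (x := x) hA 0
    have hs := shift_pair hN hA (fun a => Sum.swap_swap a) hx M
    exact ⟨l, _, fun i j => (hs.1 i j).trans (hM i j), hs.2, by simp; omega⟩
  · obtain ⟨x, hx⟩ := (exists_pair_family hB hA hN).2 h
    obtain ⟨M, -, hM⟩ := exists_correction (x := x) hA 0
    have hs := shift_pair hN hA (σ := id) (fun a => rfl) hx M
    exact ⟨_, fun i j => (hs.1 i j).trans (hM i j), hs.2, Fintype.card_fin _⟩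

end Adapt

section Coordinates

variable [CharP F 2] [FiniteDimensional F V] {B : LinearMap.BilinForm F V} {N : V →ₗ[F] V}
  {ι : Type} [Fintype ι] [DecidableEq ι] {σ : ι → ι} {x : ι → V}

/-- The coordinates map of an adapted family. -/
noncomputable def lin (N : V →ₗ[F] V) (x : ι → V) : (ι ⊕ ι → F) →ₗ[F] V :=
  Fintype.linearCombination F (Sum.elim x fun i => N (x i))

omit [CharP F 2] [FiniteDimensional F V] [DecidableEq ι] in
theorem lin_apply (v : ι ⊕ ι → F) :
    lin N x v = (∑ i, v (Sum.inl i) • x i) + ∑ i, v (Sum.inr i) • N (x i) := by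
  rw [lin, Fintype.linearCombination_apply, Fintype.sum_sum_type]; rfl

omit [CharP F 2] [FiniteDimensional F V] in
theorem Adapted.pair_lin (hN : IsNilSelf B N) (_hσ : Function.Involutive σ) (hx : Adapted B N σ x)
    (v : ι ⊕ ι → F) (i : ι) :
    B (x i) (lin N x v) = v (Sum.inr (σ i)) ∧ B (N (x i)) (lin N x v) = v (Sum.inl (σ i)) := by
  constructor
  · simp [lin_apply, hx.orth, hx.pair]
  · simp [lin_apply, hN.selfAdj (x i), hx.pair, hN.sq]

theorem Adapted.lin_injective (hN : IsNilSelf B N) (hσ : Function.Involutive σ) (hx : Adapted B N σ x) :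
    Function.Injective (lin N x) := (injective_iff_map_eq_zero _).mpr fun v hv => funext fun k => by
  rcases k with i | i
  · have h := (hx.pair_lin hN hσ v (σ i)).2
    rw [hv, map_zero, hσ] at h
    exact h.symm
  · have h := (hx.pair_lin hN hσ v (σ i)).1
    rw [hv, map_zero, hσ] at h
    exact h.symm

theorem Adapted.bilin_lin (hN : IsNilSelf B N) (hσ : Function.Involutive σ) (hx : Adapted B N σ x)
    (v w : ι ⊕ ι → F) : B (lin N x v) (lin N x w) =
      (∑ i, v (Sum.inl i) * w (Sum.inr (σ i))) + ∑ i, v (Sum.inr i) * w (Sum.inl (σ i)) := by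
  conv_lhs => rw [lin_apply v]
  simp only [map_add, map_sum, map_smul, LinearMap.add_apply, LinearMap.sum_apply, LinearMap.smul_apply,
    (hx.pair_lin hN hσ w _).1, (hx.pair_lin hN hσ w _).2, smul_eq_mul]

/-- The projection to the support. -/
noncomputable def coords (B : LinearMap.BilinForm F V) (N : V →ₗ[F] V) (σ : ι → ι) (x : ι → V) (v : V) : ι ⊕ ι → F :=
  Sum.elim (fun i => B (N (x (σ i))) v) (fun i => B (x (σ i)) v)

theorem Adapted.compl_orth (hN : IsNilSelf B N) (hσ : Function.Involutive σ) (hx : Adapted B N σ x)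
    (v : V) (i : ι) : B (x i) (v - lin N x (coords B N σ x v)) = 0 ∧
      B (N (x i)) (v - lin N x (coords B N σ x v)) = 0 := by
  constructor
  · rw [map_sub, (hx.pair_lin hN hσ _ i).1]; simp [coords, hσ i]
  · rw [map_sub, (hx.pair_lin hN hσ _ i).2]; simp [coords, hσ i]

theorem Adapted.range_eq (hN : IsNilSelf B N) (hσ : Function.Involutive σ) (hx : Adapted B N σ x) :
    LinearMap.range N = Submodule.span F (Set.range fun i => N (x i)) := by
  have hli : LinearIndependent F fun i => N (x i) := by
    refine Fintype.linearIndependent_iff.mpr fun g hg i => ?_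
    have : lin N x (Sum.elim 0 g) = 0 := by simpa [lin_apply] using hg
    exact congrFun ((injective_iff_map_eq_zero _).mp (hx.lin_injective hN hσ) _ this) (Sum.inr i)
  refine (Submodule.eq_of_le_of_finrank_eq (Submodule.span_le.mpr ?_) ?_).symm
  · rintro _ ⟨i, rfl⟩; exact LinearMap.mem_range_self N _
  · rw [finrank_span_eq_card hli, hx.card]

/-- Outside the support `N` vanishes. -/
theorem Adapted.map_eq_zero (hB : B.Nondegenerate) (hA : B.IsAlt) (hN : IsNilSelf B N)
    (hσ : Function.Involutive σ) (hx : Adapted B N σ x) {w : V} (hw : ∀ i, B (N (x i)) w = 0) : N w = 0 := by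
  refine hB.2 _ fun u => ?_
  rw [← hN.selfAdj]
  have hu : N u ∈ Submodule.span F (Set.range fun i => N (x i)) := hx.range_eq hN hσ ▸ LinearMap.mem_range_self N u
  generalize N u = y at hu ⊢
  induction hu using Submodule.span_induction with
  | mem y hy => obtain ⟨i, rfl⟩ := hy; exact hw i
  | zero => rw [map_zero, LinearMap.zero_apply]
  | add y z _ _ hy hz => rw [map_add, LinearMap.add_apply, hy, hz, add_zero]
  | smul c y _ hy => rw [map_smul, LinearMap.smul_apply, hy, smul_zero]

omit [CharP F 2] [FiniteDimensional F V] [DecidableEq ι] in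
theorem map_lin (hsq : ∀ v, N (N v) = 0) (v : ι ⊕ ι → F) :
    N (lin N x v) = lin N x (Sum.elim 0 fun i => v (Sum.inl i)) := by
  simp [lin_apply, hsq]

/-- A map between the supports extending to the space intertwines. -/
theorem Adapted.intertwine (hB : B.Nondegenerate) (hA : B.IsAlt) (hN : IsNilSelf B N)
    (hσ : Function.Involutive σ) (hx : Adapted B N σ x) {N' : V →ₗ[F] V} (hN' : IsNilSelf B N') {x' : ι → V}
    (hx' : Adapted B N' σ x') (g : V ≃ₗ[F] V) (hg : ∀ u v, B (g u) (g v) = B u v)
    (hgl : ∀ v, g (lin N x v) = lin N' x' v) (v : V) : g (N v) = N' (g v) := by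
  set c := coords B N σ x v
  set w := v - lin N x c with hw
  have hv : v = lin N x c + w := by rw [hw, add_sub_cancel]
  have hwo := fun i => hx.compl_orth hN hσ v i
  have hgx : ∀ i, g (N (x i)) = N' (x' i) := fun i => by
    have h := hgl (Sum.elim 0 (Pi.single i 1))
    simpa [lin_apply, Pi.single_apply] using h
  have h0 : N w = 0 := hx.map_eq_zero hB hA hN hσ fun i => (hwo i).2
  have h0' : N' (g w) = 0 := hx'.map_eq_zero hB hA hN' hσ fun i => by
    rw [← hgx, hg]; exact (hwo i).2
  rw [hv, map_add N, h0, add_zero, map_lin hN.sq, hgl, map_add g, map_add N', h0', add_zero, hgl, map_lin hN'.sq]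

/-- Maps with adapted families of the same shape are conjugate by isometries. -/
theorem exists_conj_of_adapted (hB : B.Nondegenerate) (hA : B.IsAlt) (hN : IsNilSelf B N)
    (hσ : Function.Involutive σ) (hx : Adapted B N σ x) {N' : V →ₗ[F] V} (hN' : IsNilSelf B N') {x' : ι → V}
    (hx' : Adapted B N' σ x') :
    ∃ g : V ≃ₗ[F] V, (∀ u v, B (g u) (g v) = B u v) ∧ ∀ v, g (N v) = N' (g v) := by
  let e := LinearEquiv.ofInjective (lin N x) (hx.lin_injective hN hσ)
  obtain ⟨g, hg, hgx⟩ := CfsgLib.Forms.witt_extension_alt B hB hA (LinearMap.range (lin N x))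
    ((lin N' x').comp e.symm.toLinearMap) ((hx'.lin_injective hN' hσ).comp e.symm.injective) (fun u u' => by
      obtain ⟨a, rfl⟩ := e.surjective u
      obtain ⟨b, rfl⟩ := e.surjective u'
      show B (lin N' x' (e.symm (e a))) (lin N' x' (e.symm (e b))) = B (lin N x a) (lin N x b)
      rw [e.symm_apply_apply, e.symm_apply_apply, hx'.bilin_lin hN' hσ, hx.bilin_lin hN hσ])
  refine ⟨g, hg, hx.intertwine hB hA hN hσ hN' hx' g hg fun v => ?_⟩
  exact (hgx (e v)).trans (congrArg (lin N' x') (e.symm_apply_apply v))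

/-- Classification under isometries of the alternating form. -/
theorem exists_conj [Finite F] (hB : B.Nondegenerate) (hA : B.IsAlt) (hN : IsNilSelf B N) {N' : V →ₗ[F] V}
    (hN' : IsNilSelf B N') (hr : finrank F (LinearMap.range N) = finrank F (LinearMap.range N'))
    (ht : IsAltType B N ↔ IsAltType B N') :
    ∃ g : V ≃ₗ[F] V, (∀ u v, B (g u) (g v) = B u v) ∧ ∀ v, g (N v) = N' (g v) := by
  by_cases h : IsAltType B N
  · obtain ⟨l, x, hx⟩ := (exists_adapted hB hA hN).1 h
    obtain ⟨l', x', hx'⟩ := (exists_adapted hB hA hN').1 (ht.mp h)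
    have hl := hx.card
    have hl' := hx'.card
    simp only [Fintype.card_sum, Fintype.card_fin] at hl hl'
    obtain rfl : l = l' := by omega
    exact exists_conj_of_adapted hB hA hN (fun a => Sum.swap_swap a) hx hN' hx'
  · obtain ⟨x, hx⟩ := (exists_adapted hB hA hN).2 h
    obtain ⟨x', hx'⟩ : ∃ x' : Fin (finrank F (LinearMap.range N)) → V, Adapted B N' id x' :=
      hr ▸ (exists_adapted hB hA hN').2 (ht.not.mp h)
    exact exists_conj_of_adapted hB hA hN (fun a => rfl) hx hN' hx'

omit [CharP F 2] [FiniteDimensional F V] in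
/-- The invariants are preserved by intertwining isometries. -/
theorem invariants_eq {N' : V →ₗ[F] V} (g : V ≃ₗ[F] V) (hg : ∀ u v, B (g u) (g v) = B u v)
    (hgN : ∀ v, g (N v) = N' (g v)) :
    finrank F (LinearMap.range N) = finrank F (LinearMap.range N') ∧ (IsAltType B N ↔ IsAltType B N') := by
  have hr : LinearMap.range N' = (LinearMap.range N).map (g : V →ₗ[F] V) := by
    ext y
    constructor
    · rintro ⟨v, rfl⟩
      exact ⟨N (g.symm v), LinearMap.mem_range_self N _, by simp [hgN]⟩
    · rintro ⟨_, ⟨v, rfl⟩, rfl⟩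
      exact ⟨g v, (hgN v).symm⟩
  refine ⟨by rw [hr, LinearEquiv.finrank_map_eq], fun h v => ?_, fun h v => ?_⟩
  · obtain ⟨u, rfl⟩ := g.surjective v
    rw [← hgN, hg]; exact h u
  · rw [← hg, hgN]; exact h (g v)

theorem IsAltType.even_rank [Finite F] (hB : B.Nondegenerate) (hA : B.IsAlt) (hN : IsNilSelf B N)
    (h : IsAltType B N) : Even (finrank F (LinearMap.range N)) := by
  obtain ⟨l, x, hx⟩ := (exists_adapted hB hA hN).1 h
  rw [← hx.card]
  simp

end Coordinates

section Standard

variable [CharP F 2] [FiniteDimensional F V] {B : LinearMap.BilinForm F V}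
  {ι : Type} [Fintype ι] [DecidableEq ι] {σ : ι → ι}

/-- The map with prescribed image. -/
noncomputable def stdNil (B : LinearMap.BilinForm F V) (σ : ι → ι) (r : ι → V) : V →ₗ[F] V :=
  ∑ i, (B.flip (r (σ i))).smulRight (r i)

omit [CharP F 2] [FiniteDimensional F V] [DecidableEq ι] in
theorem stdNil_apply (r : ι → V) (v : V) : stdNil B σ r v = ∑ i, B v (r (σ i)) • r i := by
  simp [stdNil, LinearMap.sum_apply]

/-- Every isotropic independent family gives a self-adjoint map of square zero. -/
theorem stdNil_spec (hB : B.Nondegenerate) (hA : B.IsAlt) (hσ : Function.Involutive σ) {r : ι → V}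
    (hr : LinearIndependent F r) (hiso : ∀ i j, B (r i) (r j) = 0) :
    IsNilSelf B (stdNil B σ r) ∧ finrank F (LinearMap.range (stdNil B σ r)) = Fintype.card ι ∧
      ((∀ i, σ i ≠ i) → IsAltType B (stdNil B σ r)) ∧ ((∃ i, σ i = i) → ¬IsAltType B (stdNil B σ r)) := by
  classical
  let e : V ≃ₗ[F] Module.Dual F V := B.toDual hB
  have hdual : ∀ φ : ι → F, ∃ u, ∀ i, B u (r i) = φ i := by
    intro φ
    let bb := Module.Basis.extend hr.linearIndepOn_id
    have key : ∀ i, r i ∈ hr.linearIndepOn_id.extend (Set.subset_univ (Set.range r)) := fun i =>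
      Module.Basis.subset_extend hr.linearIndepOn_id (Set.mem_range_self i)
    let L : Module.Dual F V := bb.constr F fun s => if h : ∃ i, r i = (s : V) then φ h.choose else 0
    refine ⟨e.symm L, fun i => ?_⟩
    rw [show B (e.symm L) (r i) = L (r i) from LinearMap.BilinForm.apply_toDual_symm_apply ..]
    have : bb ⟨r i, key i⟩ = r i := Module.Basis.extend_apply_self _ _
    rw [← this, Module.Basis.constr_basis, dif_pos ⟨i, rfl⟩]
    exact congrArg φ (hr.injective (⟨i, rfl⟩ : ∃ j, r j = r i).choose_spec)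
  refine ⟨⟨fun v => ?_, fun u v => ?_⟩, ?_, fun hfp v => ?_, fun hfp halt => ?_⟩
  · simp [stdNil_apply, map_sum, map_smul, hiso]
  · simp only [stdNil_apply, map_sum, map_smul, LinearMap.sum_apply, LinearMap.smul_apply, smul_eq_mul]
    refine Fintype.sum_equiv hσ.toPerm _ _ fun i => ?_
    rw [Function.Involutive.coe_toPerm, hσ i, symm_of_alt hA (r i) v, mul_comm]
  · have : LinearMap.range (stdNil B σ r) = Submodule.span F (Set.range r) := by
      refine le_antisymm ?_ (Submodule.span_le.mpr ?_)
      · rintro _ ⟨v, rfl⟩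
        rw [stdNil_apply]
        exact Submodule.sum_mem _ fun i _ => Submodule.smul_mem _ _ (Submodule.subset_span ⟨i, rfl⟩)
      · rintro _ ⟨j, rfl⟩
        obtain ⟨u, hu⟩ := hdual fun i => if σ j = i then 1 else 0
        refine ⟨u, ?_⟩
        simp only [stdNil_apply, hu, hσ.injective.eq_iff, ite_smul, one_smul, zero_smul, Finset.sum_ite_eq,
          Finset.mem_univ, if_true]
    rw [this, finrank_span_eq_card hr]
  · simp only [stdNil_apply, map_sum, map_smul, smul_eq_mul]
    refine Finset.sum_involution (fun i _ => σ i) (fun i _ => ?_) (fun i _ _ => hfp i) (fun i _ => Finset.mem_univ _)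
      (fun i _ => hσ i)
    rw [hσ i, mul_comm, CharTwo.add_self_eq_zero]
  · obtain ⟨i₀, hi₀⟩ := hfp
    obtain ⟨u, hu⟩ := hdual (Pi.single i₀ 1)
    have h := halt u
    simp only [stdNil_apply, map_sum, map_smul, smul_eq_mul, hu] at h
    rw [Finset.sum_eq_single i₀ (fun i _ hi => by simp [hi]) (by simp), hi₀] at h
    simp at h

end Standard

end CfsgLib.Classes.InvTwo
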